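import Cfsg.Agent.Lib.Fusion.PowerCenter

/-!
# The exponent of a nilpotent group in terms of the exponent of its centre
-/

set_option autoImplicit false

namespace Cfsg.Agent.Lib.Fusion.ExpCenter



open scoped commutatorElement

section

variable {G : Type*} [Group G]

/-- `Z_{i+1}^m ≤ Z_i` if `Z(G)^m = 1`. -/
theorem pow_mem_upper {m : ℕ} (h0 : ∀ z ∈ Subgroup.center G, z ^ m = 1) (i : ℕ) :
    ∀ y ∈ Subgroup.upperCentralSeries G (i + 1), y ^ m ∈ Subgroup.upperCentralSeries G i := by
  induction i with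
  | zero =>
    intro y hy
    rw [Subgroup.upperCentralSeries_one] at hy
    rw [Subgroup.upperCentralSeries_zero, Subgroup.mem_bot]
    exact h0 y hy
  | succ i ih =>
    intro y hy
    rw [Subgroup.mem_upperCentralSeries_succ_iff]
    intro g
    haveI : (Subgroup.upperCentralSeries G i).Normal := inferInstance
    let π := QuotientGroup.mk' (Subgroup.upperCentralSeries G i)
    have hy2 := (Subgroup.mem_upperCentralSeries_succ_iff).1 hy g
    obtain ⟨b, hb⟩ : ∃ b, b = ⁅y, g⁆ := ⟨_, rfl⟩
    rw [← hb] at hy2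
    have hbc : ∀ h : G, π b * π h = π h * π b := by
      intro h
      have h1 := (Subgroup.mem_upperCentralSeries_succ_iff).1 hy2 h
      have h2 : π ⁅b, h⁆ = 1 := (QuotientGroup.eq_one_iff _).2 h1
      rw [commutatorElement_def, map_mul, map_mul, map_mul, map_inv, map_inv] at h2
      have h3 : π b * π h * (π b)⁻¹ * (π h)⁻¹ * (π h * π b) = π h * π b := by
        rw [h2, one_mul]
      rw [← h3]
      group
    have hk : ∀ k : ℕ, π (y ^ k * g * (y ^ k)⁻¹ * g⁻¹) = (π b) ^ k := by
      intro k
      induction k with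
      | zero => simp
      | succ k ih2 =>
        have e : y ^ (k + 1) * g * (y ^ (k + 1))⁻¹ * g⁻¹ =
            y * (y ^ k * g * (y ^ k)⁻¹ * g⁻¹) * y⁻¹ * (y * g * y⁻¹ * g⁻¹) := by
          rw [pow_succ']
          group
        have e2 : y * g * y⁻¹ * g⁻¹ = b := by
          rw [hb, commutatorElement_def]
        rw [e, e2, map_mul, map_mul, map_mul, map_inv, ih2]
        have hcomm : ∀ k : ℕ, π y * (π b) ^ k = (π b) ^ k * π y := by
          intro k
          induction k with
          | zero => simp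
          | succ k ih3 =>
            rw [pow_succ, ← mul_assoc, ih3, mul_assoc, (hbc y).symm, mul_assoc]
        rw [hcomm k, mul_assoc, mul_assoc, mul_inv_cancel_left, pow_succ]
    have h1 := hk m
    have h2 : (π b) ^ m = 1 := by
      rw [← map_pow]
      exact (QuotientGroup.eq_one_iff _).2 (ih b hy2)
    rw [h2] at h1
    have h3 := (QuotientGroup.eq_one_iff _).1 h1
    rw [commutatorElement_def]
    exact h3

/-- `x ∈ Z_k` has `x^(m^k) = 1`. -/
theorem pow_eq_one_of_mem_upper {m : ℕ} (h0 : ∀ z ∈ Subgroup.center G, z ^ m = 1) (k : ℕ) :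
    ∀ x ∈ Subgroup.upperCentralSeries G k, x ^ (m ^ k) = 1 := by
  induction k with
  | zero =>
    intro x hx
    rw [Subgroup.upperCentralSeries_zero, Subgroup.mem_bot] at hx
    rw [hx, one_pow]
  | succ k ih =>
    intro x hx
    have h1 := ih _ (pow_mem_upper h0 k x hx)
    rw [← pow_mul, ← pow_succ'] at h1
    exact h1

end

section

variable {Ω : Type*} [Group Ω] {S : Subgroup Ω}

theorem mem_upper_of_lcs {c : ℕ} (h : S.lowerCentralSeries c = ⊥) (k : ℕ) (hk : k ≤ c) :
    ∀ x : S, (x : Ω) ∈ S.lowerCentralSeries (c - k) → x ∈ Subgroup.upperCentralSeries S k := by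
  induction k with
  | zero =>
    intro x hx
    rw [Nat.sub_zero, h, Subgroup.mem_bot] at hx
    rw [Subgroup.upperCentralSeries_zero, Subgroup.mem_bot]
    exact Subtype.ext hx
  | succ k ih =>
    intro x hx
    rw [Subgroup.mem_upperCentralSeries_succ_iff]
    intro y
    apply ih (by omega)
    have e : c - k = (c - (k + 1)) + 1 := by omega
    rw [e]
    exact Subgroup.commutator_mem_commutator hx y.2

/-- A bound for the exponent. -/
theorem pow_eq_one_of_lcs {c m : ℕ} (h : S.lowerCentralSeries c = ⊥) (h0 : ∀ z ∈ Subgroup.center S, z ^ m = 1) (x : S) :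
    x ^ (m ^ c) = 1 :=
  pow_eq_one_of_mem_upper h0 c x (mem_upper_of_lcs h c le_rfl x (by
    rw [Nat.sub_self]
    exact x.2))

end

end Cfsg.Agent.Lib.Fusion.ExpCenter
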