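import Cfsg.Agent.Lib.Fusion.CharBiset3

/-!
# Park's theorem: every fusion system is realized inside a finite group

Using a biset all of whose marks on graphs of maps of the system only depend on the order of the graph.
-/

set_option autoImplicit false

namespace Cfsg.Agent.Lib.Fusion.Park

open Cfsg Cfsg.FusionSystem Cfsg.Agent.Lib.Fusion.Basic Cfsg.Agent.Lib.Fusion.Saturation
  Cfsg.Agent.Lib.Fusion.Biset Cfsg.Agent.Lib.Fusion.Marks Cfsg.Agent.Lib.Fusion.BisetSum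
  Cfsg.Agent.Lib.Fusion.CharBiset Cfsg.Agent.Lib.Fusion.CharBiset2 Cfsg.Agent.Lib.Fusion.CharBiset3

universe u

variable {Ω : Type u} [Group Ω] {S : Subgroup Ω} (F : FusionSystem S) [Finite S]

/-- The inductive construction of a biset with uniform marks. -/
theorem exists_uniform_stage [Fintype (Subgroup (Bi S))] :
    ∀ j k, k + j = Nat.card S + 1 →
      ∃ a : Subgroup (Bi S) → ℕ, (∀ D, a D ≠ 0 → D ∈ Gs F ∧ k ≤ Nat.card D) ∧
        (∀ E₁ ∈ Gs F, ∀ E₂ ∈ Gs F, Nat.card E₁ = Nat.card E₂ → k ≤ Nat.card E₁ → mark (BX a) E₁ = mark (BX a) E₂) ∧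
        (k ≤ Nat.card S → ∀ E ∈ Gs F, Nat.card E = Nat.card S → 0 < mark (BX a) E) := by
  classical
  intro j
  induction j with
  | zero =>
    intro k hk
    refine ⟨0, fun D hD => absurd rfl hD, fun E₁ h₁ E₂ _ _ h => ?_, fun h => by omega⟩
    have := card_Gs_le F h₁
    omega
  | succ j ih =>
    intro k hk
    obtain ⟨a, ha1, ha2, ha3⟩ := ih (k + 1) (by omega)
    let N : ℕ := ∏ D : Subgroup (Bi S), cc D D
    have hNpos : 0 < N := Finset.prod_pos (fun D _ => cc_self_pos D)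
    have hNdvd : ∀ E : Subgroup (Bi S), cc E E ∣ N := fun E =>
      Finset.dvd_prod_of_mem (fun D : Subgroup (Bi S) => cc D D) (Finset.mem_univ E)
    let a' : Subgroup (Bi S) → ℕ := fun D => N * a D
    have hmark' : ∀ E, mark (BX a') E = N * mark (BX a) E := mark_BX_smul N a
    let M₀ : ℕ := (Nat.card (BX a') + 1) * N
    have hM₀ : 0 < M₀ := Nat.mul_pos (Nat.succ_pos _) hNpos
    have hle : ∀ E : Subgroup (Bi S), mark (BX a') E ≤ M₀ := by
      intro E
      have h1 := mark_le (X := BX a') E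
      have h2 : Nat.card (BX a') + 1 ≤ (Nat.card (BX a') + 1) * N := Nat.le_mul_of_pos_right _ hNpos
      show mark (BX a') E ≤ (Nat.card (BX a') + 1) * N
      omega
    obtain ⟨b, hb1, hb2, hb3, -⟩ := exists_level_step a' (Gs F) (fun D hD g => Gs_cj F hD g) k (fun _ => M₀)
      (fun _ _ => rfl) (fun E _ _ => hle E) (fun E _ _ => by
        show cc E E ∣ M₀ - mark (BX a') E
        rw [hmark' E]
        have : M₀ - N * mark (BX a) E = N * (Nat.card (BX a') + 1 - mark (BX a) E) := by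
          show (Nat.card (BX a') + 1) * N - N * mark (BX a) E = _
          rw [Nat.mul_sub, mul_comm]
        rw [this]
        exact Dvd.dvd.mul_right (hNdvd E) _)
    refine ⟨b, fun D hD => ?_, fun E₁ h₁ E₂ h₂ hc hk' => ?_, fun hk' E hE hc => ?_⟩
    · by_cases h : b D = a' D
      · have h1 : a D ≠ 0 := by
          intro h0
          apply hD
          rw [h]
          show N * a D = 0
          rw [h0, mul_zero]
        obtain ⟨h2, h3⟩ := ha1 D h1
        exact ⟨h2, by omega⟩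
      · obtain ⟨h1, h2⟩ := hb1 D h
        exact ⟨h1, h2.ge⟩
    · rcases hk'.lt_or_eq with hlt | heq
      · rw [hb3 _ hlt, hb3 _ (by omega), hmark', hmark', ha2 E₁ h₁ E₂ h₂ hc hlt]
      · rw [hb2 _ h₁ heq.symm, hb2 _ h₂ (by omega)]
    · rcases hk'.lt_or_eq with hlt | heq
      · rw [hb3 E (by omega), hmark']
        exact Nat.mul_pos hNpos (ha3 hlt E hE hc)
      · rw [hb2 E hE (by omega)]
        exact hM₀

/-- The biset: stable marks, positive at the top, stabilizers are graphs. -/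
theorem exists_uniform_biset :
    ∃ (X : Type u) (_ : MulAction (Bi S) X) (_ : Finite X), Sta F X 0 ∧ (∃ x : X, ∀ s : S, ((s, s) : Bi S) • x = x) ∧
      ∀ x : X, ∃ E ∈ Gs F, ∀ g : Bi S, g • x = x → g ∈ E := by
  classical
  haveI : Fintype (Subgroup (Bi S)) := Fintype.ofFinite _
  obtain ⟨a, ha1, ha2, ha3⟩ := exists_uniform_stage F (Nat.card S + 1) 0 (by omega)
  refine ⟨BX a, inferInstance, inferInstance, fun P P' α β hα hβ D _ => ?_, ?_, ?_⟩
  · have hc1 : Nat.card (D.map (inc F hα hβ)) = Nat.card D :=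
      Subgroup.card_map_of_injective (inc_injective F hα hβ)
    have hc2 : Nat.card (D.map (bm F hα hβ)) = Nat.card D :=
      Subgroup.card_map_of_injective (bm_injective F hα hβ)
    by_cases hG : D.map (inc F hα hβ) ∈ Gs F
    · exact ha2 _ hG _ (Gs_bm F hα hβ D hG).1 (by rw [hc1, hc2]) (Nat.zero_le _)
    · have hG2 : D.map (bm F hα hβ) ∉ Gs F := fun h => hG ((Gs_bm_iff F hα hβ D).2 h)
      rw [mark_eq_zero_of_support F (fun D h => (ha1 D h).1) hG,
        mark_eq_zero_of_support F (fun D h => (ha1 D h).1) hG2]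
  · have hD : (Dl S : Subgroup (Bi S)) ∈ Gs F := ⟨S, _, subtype_mem F le_rfl, dg_eq_gr F le_rfl⟩
    have h1 := ha3 (Nat.zero_le _) _ hD card_Dl
    have h2 : Nonempty (fixS (BX a) (Dl S : Subgroup (Bi S))) := by
      by_contra h
      rw [not_nonempty_iff] at h
      have h3 : mark (BX a) (Dl S : Subgroup (Bi S)) = 0 := Nat.card_of_isEmpty
      omega
    obtain ⟨⟨x, hx⟩⟩ := h2
    exact ⟨x, fun s => hx _ (mem_dg.2 ⟨rfl, s.2⟩)⟩
  · rintro ⟨D, i, q⟩
    obtain ⟨t, rfl⟩ := QuotientGroup.mk_surjective q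
    refine ⟨cj t D, Gs_cj F (ha1 D i.pos.ne').1 t, fun g hg => ?_⟩
    have h1 : (⟨D, i, g • (t : Bi S ⧸ D)⟩ : BX a) = ⟨D, i, (t : Bi S ⧸ D)⟩ := hg
    have h2 := sigma_mk_injective h1
    have h3 : g • (t : Bi S ⧸ D) = (t : Bi S ⧸ D) := (Prod.mk.inj h2).2
    have h4 : ((g * t : Bi S) : Bi S ⧸ D) = (t : Bi S ⧸ D) := h3
    have h5 := QuotientGroup.eq.1 h4
    rw [mem_cj]
    have h6 := D.inv_mem h5
    have e : ((g * t)⁻¹ * t)⁻¹ = t⁻¹ * g * t := by group
    rwa [e] at h6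

/-- **Park's theorem.** -/
theorem exists_realization : ∃ (G : Type u) (_ : Group G) (_ : Finite G) (ι : ↥S →* G), F.IsRealizedBy ι := by
  classical
  obtain ⟨X, iX, fX, hsta, ⟨x₀, hx₀⟩, hstab⟩ := exists_uniform_biset F
  have hinv : ∀ (σ : Equiv.Perm X) (y : X), σ (σ⁻¹ y) = y := fun σ y => σ.apply_symm_apply y
  let G : Subgroup (Equiv.Perm X) :=
    { carrier := {σ | ∀ (u : S) (x : X), σ (((1, u) : Bi S) • x) = ((1, u) : Bi S) • σ x}
      mul_mem' := fun {σ τ} hσ hτ u x => by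
        show σ (τ _) = _ • σ (τ x)
        rw [hτ, hσ]
      one_mem' := fun u x => rfl
      inv_mem' := fun {σ} hσ u x => by
        rw [Equiv.Perm.inv_eq_iff_eq, hσ, hinv] }
  have hleft : ∀ (s : S) (u : S) (x : X),
      ((s, 1) : Bi S) • ((1, u) : Bi S) • x = ((1, u) : Bi S) • ((s, 1) : Bi S) • x := by
    intro s u x
    rw [smul_smul, smul_smul]
    congr 1
    ext <;> simp
  let ι : ↥S →* G :=
    { toFun := fun s => ⟨MulAction.toPerm ((s, 1) : Bi S), fun u x => hleft s u x⟩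
      map_one' := by
        apply Subtype.ext
        ext x
        exact one_smul _ x
      map_mul' := fun s s' => by
        apply Subtype.ext
        ext x
        show ((s * s', 1) : Bi S) • x = ((s, 1) : Bi S) • ((s', 1) : Bi S) • x
        rw [smul_smul]
        congr 1
        ext <;> simp }
  have hι : ∀ (s : S) (x : X), (ι s : Equiv.Perm X) x = ((s, 1) : Bi S) • x := fun _ _ => rfl
  refine ⟨G, inferInstance, inferInstance, ι, ?_, fun P hP φ hφ => ⟨fun hφF => ?_, ?_⟩⟩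
  · -- injectivity
    intro s s' h
    have h1 : ((s, 1) : Bi S) • x₀ = ((s', 1) : Bi S) • x₀ := by
      rw [← hι, ← hι, h]
    have h2 : ((s'⁻¹ * s, 1) : Bi S) • x₀ = x₀ := by
      have e : ((s'⁻¹ * s, 1) : Bi S) = ((s', 1) : Bi S)⁻¹ * (s, 1) := by
        ext <;> simp
      rw [e, mul_smul, h1, inv_smul_smul]
    obtain ⟨_, ⟨R, χ, hχ, rfl⟩, hE⟩ := hstab x₀
    obtain ⟨h3, h4⟩ := (mem_gr F hχ).1 (hE _ h2)
    have h5 : χ ⟨_, h3⟩ = χ 1 := h4.trans (map_one χ).symm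
    have h6 := F.injective_of_mem hχ h5
    have h7 : s'⁻¹ * s = 1 := Subtype.ext (congrArg (fun z : ↥R => (z : Ω)) h6)
    rw [inv_mul_eq_one] at h7
    exact h7.symm
  · -- a map of the system is a conjugation
    have hβ := subtype_mem F (le_refl S)
    obtain ⟨σ, hσ⟩ := exists_equiv_of_sta F hsta hφF hβ
    have hσr : σ ∈ G := by
      intro u y
      have h1 := hσ (1, u) y
      have e1 : inc F hφF hβ (1, u) = (1, u) := rfl
      have e2 : bm F hφF hβ (1, u) = (1, u) := by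
        apply Prod.ext
        · exact Subtype.ext (map_one φ)
        · rfl
      rwa [e1, e2] at h1
    refine ⟨⟨σ, hσr⟩, fun x => ?_⟩
    apply Subtype.ext
    ext y
    show ((⟨φ x, hφ x⟩, 1) : Bi S) • y = σ (((⟨x, hP x.2⟩, 1) : Bi S) • (σ⁻¹ y))
    have h1 := hσ (x, 1) (σ⁻¹ y)
    have e1 : inc F hφF hβ (x, 1) = (⟨x, hP x.2⟩, 1) := rfl
    have e2 : bm F hφF hβ (x, 1) = (⟨φ x, hφ x⟩, 1) := rfl
    rw [e1, e2, hinv] at h1
    exact h1.symm
  · -- a conjugation is a map of the system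
    rintro ⟨g, hg⟩
    have hg' : ∀ (x : P) (y : X), ((⟨φ x, hφ x⟩, 1) : Bi S) • (g : Equiv.Perm X) y =
        (g : Equiv.Perm X) (((⟨x, hP x.2⟩, 1) : Bi S) • y) := by
      intro x y
      have h1 := congrArg (fun w : G => (w : Equiv.Perm X) ((g : Equiv.Perm X) y)) (hg x)
      simp only [Subgroup.coe_mul] at h1
      have h2 : ((⟨φ x, hφ x⟩, 1) : Bi S) • (g : Equiv.Perm X) y =
          ((g : Equiv.Perm X) * (ι ⟨x, hP x.2⟩ : Equiv.Perm X) * ((g⁻¹ : G) : Equiv.Perm X)) ((g : Equiv.Perm X) y) := h1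
      rw [h2]
      show (g : Equiv.Perm X) ((ι ⟨x, hP x.2⟩ : Equiv.Perm X) (((g⁻¹ : G) : Equiv.Perm X) ((g : Equiv.Perm X) y))) = _
      have h3 : ((g⁻¹ : G) : Equiv.Perm X) ((g : Equiv.Perm X) y) = y := by
        show (((g⁻¹ : G) : Equiv.Perm X) * (g : Equiv.Perm X)) y = y
        rw [← Subgroup.coe_mul, inv_mul_cancel]
        rfl
      rw [h3]
      rfl
    set w : X := (g : Equiv.Perm X) x₀ with hw
    have hfix : ∀ x : P, ((⟨φ x, hφ x⟩, ⟨x, hP x.2⟩) : Bi S) • w = w := by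
      intro x
      have e : ((⟨φ x, hφ x⟩, ⟨x, hP x.2⟩) : Bi S) = (⟨φ x, hφ x⟩, 1) * (1, ⟨x, hP x.2⟩) := by
        ext <;> simp
      rw [e, mul_smul, hw, ← g.2 ⟨x, hP x.2⟩ x₀, hg', smul_smul]
      have e2 : ((⟨x, hP x.2⟩, 1) : Bi S) * (1, ⟨x, hP x.2⟩) = (⟨x, hP x.2⟩, ⟨x, hP x.2⟩) := by
        ext <;> simp
      rw [e2, hx₀]
    obtain ⟨_, ⟨R, χ, hχ, rfl⟩, hE⟩ := hstab w
    have h1 : ∀ x : P, ∃ h : φ x ∈ R, χ ⟨φ x, h⟩ = x := fun x => (mem_gr F hχ).1 (hE _ (hfix x))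
    have hle : φ.range ≤ R := by
      rintro _ ⟨x, rfl⟩
      exact (h1 x).1
    have hχ' := restrict_mem F hle hχ
    have hr : (χ.comp (Subgroup.inclusion hle)).range = P := by
      ext y
      constructor
      · rintro ⟨⟨_, x, rfl⟩, rfl⟩
        show χ ⟨φ x, _⟩ ∈ P
        rw [(h1 x).2]
        exact x.2
      · intro hy
        refine ⟨⟨φ ⟨y, hy⟩, ⟨y, hy⟩, rfl⟩, ?_⟩
        exact (h1 ⟨y, hy⟩).2
    obtain ⟨ψ, hψ, -, hψ2, -, -⟩ := exists_inv F hχ' hr
    have hφψ : φ = ψ := by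
      ext y
      have h2 : χ ⟨φ y, (h1 y).1⟩ ∈ P := by
        rw [(h1 y).2]
        exact y.2
      have h3 := hψ2 ⟨φ y, ⟨y, rfl⟩⟩ h2
      have h4 : (⟨(χ.comp (Subgroup.inclusion hle)) ⟨φ y, ⟨y, rfl⟩⟩, h2⟩ : P) = y :=
        Subtype.ext (h1 y).2
      rw [h4] at h3
      exact h3.symm
    rw [hφψ]
    exact hψ

end Cfsg.Agent.Lib.Fusion.Park
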