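import Cfsg.Agent.Lib.Fusion.Supersoluble

/-!
# Extremely sparse fusion systems
-/

set_option autoImplicit false
set_option linter.unusedSectionVars false

namespace Cfsg.Agent.Lib.Fusion.Sparse

open Cfsg Cfsg.FusionSystem Cfsg.Agent.Lib.Fusion.Basic Cfsg.Agent.Lib.Fusion.SmallEssential
open Cfsg.Agent.Lib.Fusion.Supersoluble Cfsg.Agent.Lib.Fusion.Alperin
open Cfsg.Agent.Lib.FusionTheory.Chain Cfsg.Agent.Lib.FusionTheory.CoprimeAut
open Subgroup

variable {Ω : Type*} [Group Ω] {S : Subgroup Ω} [Finite S] {p : ℕ} [hp : Fact p.Prime]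

theorem isPGroup_of_le (hS : IsPGroup p S) {Q : Subgroup Ω} (hQ : Q ≤ S) : IsPGroup p Q := by
  have h1 : IsPGroup p (Q.subgroupOf S) := hS.to_subgroup _
  exact h1.of_equiv (Subgroup.subgroupOfEquivOfLe hQ)

/-- A nontrivial automorphism in `Aut_F(Q)`, of order prime to `p`, generates the whole system. -/
theorem sparse_aux (hS : IsPGroup p S) {F : FusionSystem S}
    (hsub : ∀ (T : Subgroup Ω) (E : FusionSystem T), E.IsSaturated p → E.IsSubsystemOf F →
      (T = S ∧ ∀ P : Subgroup Ω, E.Hom P = F.Hom P) ∨ (∀ P : Subgroup Ω, E.Hom P = (innerFusionSystem T).Hom P))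
    {Q : Subgroup Ω} (hQ : Q ≤ S) {γ : MulAut Q} (hγ : γ ∈ F.autGroup Q) (hne : γ ≠ 1) (hord : (orderOf γ).Coprime p) :
    Q = S ∧ ∀ P : Subgroup Ω, (autSys (Inn Q ⊔ zpowers γ) le_sup_left).Hom P = F.Hom P := by
  haveI : Finite Q := finite_of_le hQ
  have hQp : IsPGroup p Q := isPGroup_of_le hS hQ
  have hsat : (autSys (Inn Q ⊔ zpowers γ) le_sup_left).IsSaturated p :=
    autSys_isSaturated hQp (zpowers γ) (by rw [Nat.card_zpowers]; exact hord)
  have hle : Inn Q ⊔ zpowers γ ≤ F.autGroup Q :=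
    sup_le (inn_le_autGroup F hQ) ((zpowers_le).2 hγ)
  have hsubs : (autSys (Inn Q ⊔ zpowers γ) le_sup_left).IsSubsystemOf F := by
    rintro P φ ⟨hP, α, hα, h⟩
    exact restrict_mem' F hP (autHom_mem F hQ (hle hα)) φ h
  rcases hsub Q _ hsat hsubs with h | h
  · exact h
  · exfalso
    have h1 : autHom γ ∈ (autSys (Inn Q ⊔ zpowers γ) le_sup_left).Hom Q :=
      ⟨le_rfl, γ, mem_sup_right (mem_zpowers γ), fun _ => rfl⟩
    rw [h Q] at h1
    obtain ⟨-, g, hg, h2⟩ := h1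
    have h3 : γ = MulAut.conj (⟨g, hg⟩ : Q) := by
      ext x
      exact h2 x
    have h4 : γ ∈ Inn Q := ⟨_, h3.symm⟩
    obtain ⟨n, hn⟩ := isPGroup_inn hQp ⟨γ, h4⟩
    have h5 : γ ^ p ^ n = 1 := congrArg Subtype.val hn
    have h6 : orderOf γ ∣ p ^ n := orderOf_dvd_of_pow_eq_one h5
    have h7 : Nat.Coprime (orderOf γ) (p ^ n) := hord.pow_right n
    have h8 := Nat.Coprime.eq_one_of_dvd h7 h6
    exact hne (orderOf_eq_one_iff.1 h8)

/-- **Main theorem.** -/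
theorem sparse_main (hS : IsPGroup p S) (F : FusionSystem S) (hF : F.IsSaturated p)
    (hxs : ¬ (∀ P : Subgroup Ω, F.Hom P = (innerFusionSystem S).Hom P) ∧
      ∀ (T : Subgroup Ω) (E : FusionSystem T), E.IsSaturated p → E.IsSubsystemOf F →
      (T = S ∧ ∀ P : Subgroup Ω, E.Hom P = F.Hom P) ∨ (∀ P : Subgroup Ω, E.Hom P = (innerFusionSystem T).Hom P)) :
    F.IsNormal S ∧ F.focalSubgroup = S ∧ F.hyperfocalSubgroup p = S ∧ ∃ (q : ℕ) (β : MulAut ↥S), q.Prime ∧ q ≠ p ∧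
      β ∈ F.autGroup S ∧ orderOf β = q ∧ (F.autGroup S : Subgroup (MulAut ↥S)) = Inn ↥S ⊔ zpowers β := by
  obtain ⟨hninn, hsub⟩ := hxs
  have hp0 := hp.out
  -- an automorphism of prime order
  obtain ⟨Q, hQ, hnp⟩ : ∃ Q : Subgroup Ω, Q ≤ S ∧ ¬ IsPGroup p (F.autGroup Q) := by
    by_contra hcon
    push Not at hcon
    apply hninn
    intro P
    rw [eq_inner_of_isPGroup_aut F hS hF hcon]
  haveI : Finite Q := finite_of_le hQ
  haveI hfQ : Finite (MulAut Q) := finite_mulAut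
  obtain ⟨g, hgc, hg1⟩ : ∃ g : F.autGroup Q, (orderOf g).Coprime p ∧ g ≠ 1 := by
    by_contra hcon
    push Not at hcon
    exact hnp (isPGroup_of_coprime_trivial hcon)
  have hog : orderOf (g : MulAut Q) = orderOf g := Subgroup.orderOf_coe g
  have hog1 : orderOf (g : MulAut Q) ≠ 1 := by
    rw [hog]
    intro h
    exact hg1 (orderOf_eq_one_iff.1 h)
  let q := (orderOf (g : MulAut Q)).minFac
  have hq : q.Prime := Nat.minFac_prime hog1
  have hqd : q ∣ orderOf (g : MulAut Q) := Nat.minFac_dvd _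
  let β : MulAut Q := (g : MulAut Q) ^ (orderOf (g : MulAut Q) / q)
  have hβo : orderOf β = q := orderOf_pow_orderOf_div (orderOf_pos _).ne' hqd
  have hβF : β ∈ F.autGroup Q := (F.autGroup Q).pow_mem g.2 _
  have hqp : q ≠ p := by
    intro h
    have h1 : p ∣ orderOf g := by
      rw [← hog, ← h]
      exact hqd
    have h2 := Nat.Coprime.eq_one_of_dvd hgc.symm h1
    exact hp0.one_lt.ne' h2
  have hβc : (orderOf β).Coprime p := by
    rw [hβo]
    exact (Nat.coprime_primes hq hp0).2 hqp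
  have hβ1 : β ≠ 1 := by
    intro h
    rw [h, orderOf_one] at hβo
    exact hq.one_lt.ne hβo
  obtain ⟨rfl, hHom⟩ := sparse_aux hS hsub hQ hβF hβ1 hβc
  clear_value β
  -- `Aut_F(S)`
  have hAut : F.autGroup Q = Inn Q ⊔ zpowers β := by
    apply le_antisymm
    · intro α hα
      have h1 := autHom_mem F le_rfl hα
      rw [← hHom] at h1
      obtain ⟨hP', γ, hγ, h2⟩ := h1
      have h3 : α = γ := by
        ext x
        exact h2 x
      rw [h3]
      exact hγ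
    · exact sup_le (inn_le_autGroup F le_rfl) ((zpowers_le).2 hβF)
  -- normality
  have hNorm : F.IsNormal Q := by
    refine ⟨le_rfl, fun P φ hφ => ?_⟩
    rw [← hHom] at hφ
    obtain ⟨hP, α, hα, h⟩ := hφ
    have hPS : P ⊔ Q ≤ Q := sup_le hP le_rfl
    refine ⟨Q.subtype.comp (α.toMonoidHom.comp (Subgroup.inclusion hPS)), ?_, ?_, ?_⟩
    · rw [← hHom]
      exact ⟨hPS, α, hα, fun _ => rfl⟩
    · intro x
      exact (h x).symm
    · ext y
      constructor
      · rintro ⟨⟨z, hz⟩, -, rfl⟩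
        exact (α _).2
      · intro hy
        refine ⟨⟨(α⁻¹ ⟨y, hy⟩ : Q), mem_sup_right (α⁻¹ ⟨y, hy⟩ : Q).2⟩, (α⁻¹ ⟨y, hy⟩ : Q).2, ?_⟩
        show ((α (α⁻¹ ⟨y, hy⟩) : Q) : Ω) = y
        have h1 : α (α⁻¹ ⟨y, hy⟩) = ⟨y, hy⟩ := by simp
        rw [h1]
  -- `[S, β] = S`
  let A : Subgroup (MulAut Q) := zpowers β
  let S₀ : Subgroup Q := commAut A ⊤
  have hAF : A ≤ F.autGroup Q := (zpowers_le).2 hβF
  have hA0 : ∀ γ ∈ A, ∀ u ∈ (⊤ : Subgroup Q), γ u ∈ (⊤ : Subgroup Q) := fun _ _ _ _ => mem_top _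
  have hcopA : (Nat.card A).Coprime (Nat.card (⊤ : Subgroup Q)) := by
    obtain ⟨n, hn⟩ := IsPGroup.iff_card.1 (hS.to_subgroup (⊤ : Subgroup Q))
    rw [hn]
    show (Nat.card (zpowers β)).Coprime (p ^ n)
    rw [Nat.card_zpowers]
    exact hβc.pow_right n
  have hsolv : Group.IsSolvable (⊤ : Subgroup Q) := by
    haveI := (hS.to_subgroup (⊤ : Subgroup Q)).isNilpotent
    infer_instance
  have hcc := commAut_commAut (A := A) (⊤ : Subgroup Q) hA0 hcopA hsolv
  have hβA : β ∈ A := mem_zpowers β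
  have hinv1 : ∀ s ∈ S₀, β s ∈ S₀ := fun s hs => commAut_invariant hA0 hβA hs
  have hinv2 : ∀ s ∈ S₀, β⁻¹ s ∈ S₀ := fun s hs => commAut_invariant hA0 (A.inv_mem hβA) hs
  let T : Subgroup Ω := S₀.map Q.subtype
  have hTQ : T ≤ Q := by
    rintro _ ⟨x, -, rfl⟩
    exact x.2
  let e : S₀ ≃* T := Subgroup.equivMapOfInjective S₀ Q.subtype Q.subtype_injective
  let β₀ : MulAut T := MulAut.congr e (restrictAut β S₀ hinv1 hinv2)
  have hβ₀ : ∀ x : T, ((β₀ x : T) : Ω) = (β ⟨x, hTQ x.2⟩ : Q) := by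
    intro x
    obtain ⟨y, rfl⟩ := e.surjective x
    have h1 : β₀ (e y) = e (restrictAut β S₀ hinv1 hinv2 y) := by
      show e (restrictAut β S₀ hinv1 hinv2 (e.symm (e y))) = _
      rw [e.symm_apply_apply]
    rw [h1]
    rfl
  have hβ₀F : β₀ ∈ F.autGroup T := by
    rw [mem_autGroup_iff F hTQ]
    exact restrict_mem' F hTQ (autHom_mem F le_rfl hβF) _ hβ₀
  have hβ₀c : (orderOf β₀).Coprime p := by
    have h1 : orderOf β₀ = orderOf (restrictAut β S₀ hinv1 hinv2) :=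
      MulEquiv.orderOf_eq (MulAut.congr e) _
    rw [h1]
    exact coprime_orderOf_restrictAut β S₀ hinv1 hinv2 hβc
  have hβ₀1 : β₀ ≠ 1 := by
    intro h
    have hfix : ∀ s ∈ S₀, β s = s := by
      intro s hs
      have h1 := hβ₀ (e ⟨s, hs⟩)
      rw [h] at h1
      exact Subtype.ext h1.symm
    have h2 : commAut A S₀ = ⊥ := by
      rw [commAut_eq_bot_iff]
      intro γ hγ u hu
      have h3 : zpowers β ≤ MulAction.stabilizer (MulAut Q) u := by
        rw [zpowers_le]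
        exact hfix u hu
      exact h3 hγ
    have h3 : S₀ = ⊥ := by
      show commAut A ⊤ = ⊥
      rw [← hcc]
      exact h2
    have h4 := commAut_eq_bot_iff.1 h3 β hβA
    apply hβ1
    ext x
    exact congrArg Subtype.val (h4 x (mem_top x))
  obtain ⟨hTeq, -⟩ := sparse_aux hS hsub hTQ hβ₀F hβ₀1 hβ₀c
  have hmem : ∀ s : Q, s ∈ S₀ := by
    intro s
    have h1 : (s : Ω) ∈ T := by
      rw [hTeq]
      exact s.2
    obtain ⟨t, ht, hts⟩ := h1
    have h2 : t = s := Subtype.ext hts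
    rw [← h2]
    exact ht
  have hgen : ∀ (W : Subgroup Ω), (∀ γ ∈ A, ∀ u : Q, (u : Ω)⁻¹ * (γ u : Q) ∈ W) → Q ≤ W := by
    intro W hW s hs
    have h1 : S₀ ≤ W.comap Q.subtype := commAut_le fun γ hγ u _ => hW γ hγ u
    exact h1 (hmem ⟨s, hs⟩)
  refine ⟨hNorm, ?_, ?_, q, β, hq, hqp, hβF, hβo, hAut⟩
  · apply le_antisymm
    · apply (closure_le _).2
      rintro y ⟨P, φ, x, hφ, rfl⟩
      have hPS := (F.le_of_mem hφ).1
      exact Q.mul_mem (Q.inv_mem (hPS x.2)) ((F.le_of_mem hφ).2 x)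
    · apply hgen
      intro γ hγ u
      exact Subgroup.subset_closure ⟨Q, autHom γ, u, autHom_mem F le_rfl (hAF hγ), rfl⟩
  · apply le_antisymm
    · apply (closure_le _).2
      rintro y ⟨P, α, x, hPS, -, rfl⟩
      exact Q.mul_mem (Q.inv_mem (hPS x.2)) (hPS ((α : MulAut P) x).2)
    · apply hgen
      intro γ hγ u
      refine Subgroup.subset_closure ⟨Q, ⟨γ, hAF hγ⟩, u, le_rfl, ?_, rfl⟩
      apply Subgroup.subset_closure
      show (orderOf (⟨γ, hAF hγ⟩ : F.autGroup Q)).Coprime p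
      rw [Subgroup.orderOf_mk]
      exact Nat.Coprime.coprime_dvd_left (orderOf_dvd_of_mem_zpowers hγ) hβc

end Cfsg.Agent.Lib.Fusion.Sparse
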