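import Cfsg.Agent.Lib.Fusion.Supersoluble
import Cfsg.Agent.Lib.Involutions.Dihedral
import Cfsg.Agent.Lib.PGroups.Critical

/-!
# Abelian `p`-groups of supersoluble type
-/

set_option autoImplicit false
set_option linter.unusedSectionVars false

namespace Cfsg.Agent.Lib.Fusion.SupersolubleAb

open Cfsg Cfsg.FusionSystem Cfsg.Agent.Lib.Fusion.Basic Cfsg.Agent.Lib.Fusion.SmallEssential
open Cfsg.Agent.Lib.Fusion.Supersoluble
open Cfsg.Agent.Lib.FusionTheory.Chain Cfsg.Agent.Lib.FusionTheory.CoprimeAut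
open Subgroup

section flag

variable {p : ℕ} [hp : Fact p.Prime]

/-- The flag `Ω₁ ∩ ℧ʲ` of the elements of order dividing `p` which are `p ^ j`-th powers. -/
def Dj (p j : ℕ) (A : Type*) [CommGroup A] : Subgroup A :=
  (powMonoidHom p : A →* A).ker ⊓ (powMonoidHom (p ^ j) : A →* A).range

variable {A : Type*} [CommGroup A]

theorem mem_Dj {j : ℕ} {y : A} : y ∈ Dj p j A ↔ y ^ p = 1 ∧ ∃ z : A, z ^ (p ^ j) = y := by
  simp [Dj, MonoidHom.mem_ker, MonoidHom.mem_range]

theorem Dj_succ_le (j : ℕ) : Dj p (j + 1) A ≤ Dj p j A := by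
  intro y hy
  rw [mem_Dj] at hy ⊢
  obtain ⟨h1, z, hz⟩ := hy
  refine ⟨h1, z ^ p, ?_⟩
  rw [← hz, pow_succ', pow_mul]

theorem Dj_bot {N : ℕ} (hN : Nat.card A = p ^ N) [Finite A] : Dj p N A = ⊥ := by
  rw [eq_bot_iff]
  intro y hy
  rw [mem_Dj] at hy
  obtain ⟨-, z, hz⟩ := hy
  rw [← hz, ← hN]
  exact pow_card_eq_one'

theorem map_mem_Dj {B : Type*} [CommGroup B] (φ : A ≃* B) {j : ℕ} {y : A} (hy : y ∈ Dj p j A) : φ y ∈ Dj p j B := by
  rw [mem_Dj] at hy ⊢
  obtain ⟨h1, z, hz⟩ := hy
  exact ⟨by rw [← map_pow, h1, map_one], φ z, by rw [← map_pow, hz]⟩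

/-- A `p'`-automorphism of an abelian `p`-group fixing the elements of order `p` is trivial. -/
theorem eq_one_of_fix_omega [Finite A] (hA : IsPGroup p A) {τ : MulAut A} (hτ : (orderOf τ).Coprime p)
    (hfix : ∀ x : A, x ^ p = 1 → τ x = x) : τ = 1 := by
  have hp0 := hp.out
  have key : ∀ k : ℕ, ∀ x : A, x ^ (p ^ k) = 1 → τ x = x := by
    intro k
    induction k with
    | zero =>
      intro x hx
      rw [pow_zero, pow_one] at hx
      rw [hx, map_one]
    | succ k ih =>
      intro x hx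
      have h1 : τ (x ^ p) = x ^ p := ih _ (by rw [← pow_mul, ← pow_succ']; exact hx)
      let t := x⁻¹ * τ x
      have ht : t ^ p = 1 := by
        show (x⁻¹ * τ x) ^ p = 1
        rw [mul_pow, ← map_pow, h1, inv_pow, inv_mul_cancel]
      have hft : τ t = t := hfix t ht
      have hax : τ x = x * t := by
        show τ x = x * (x⁻¹ * τ x)
        group
      have h2 := Cfsg.Agent.Lib.PGroups.Critical.pow_apply_of_fixed τ hft hax (orderOf τ)
      rw [pow_orderOf_eq_one] at h2
      have h3 : t ^ orderOf τ = 1 := by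
        have h4 : x = x * t ^ orderOf τ := h2
        exact mul_eq_left.1 h4.symm
      have h5 := eq_one_of_pow_coprime hA hτ h3
      rw [hax, h5, mul_one]
  ext x
  obtain ⟨k, hk⟩ := hA x
  exact key k x hk

end flag

section single

variable {p : ℕ} [hp : Fact p.Prime]

/-- Elements of order dividing `p` of `ZMod (p ^ e)`. -/
theorem zmod_eq_of_smul {e : ℕ} (he : 0 < e) (a : ZMod (p ^ e)) (ha : p • a = 0) :
    ∃ c : ℕ, a = c • ((p : ZMod (p ^ e)) ^ (e - 1)) := by
  haveI : NeZero (p ^ e) := ⟨pow_ne_zero _ hp.out.ne_zero⟩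
  have h1 : ((p * a.val : ℕ) : ZMod (p ^ e)) = 0 := by
    rw [Nat.cast_mul, ZMod.natCast_zmod_val, ← nsmul_eq_mul]
    exact ha
  rw [ZMod.natCast_eq_zero_iff] at h1
  have hee : e = (e - 1) + 1 := by omega
  have h2 : p ^ (e - 1) ∣ a.val := by
    have h3 : p * p ^ (e - 1) ∣ p * a.val := by
      rw [← pow_succ', ← hee]
      exact h1
    exact (Nat.mul_dvd_mul_iff_left hp.out.pos).1 h3
  obtain ⟨c, hc⟩ := h2
  refine ⟨c, ?_⟩
  rw [← ZMod.natCast_zmod_val a, hc, nsmul_eq_mul]
  push_cast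
  ring

end single

section pi

variable {p : ℕ} [hp : Fact p.Prime] {ι : Type*} [Fintype ι] {e : ι → ℕ}

abbrev PiB (p : ℕ) {ι : Type*} (e : ι → ℕ) : Type _ := (i : ι) → Multiplicative (ZMod (p ^ e i))

theorem pi_pow_apply (y : PiB p e) (k : ℕ) (i : ι) : Multiplicative.toAdd ((y ^ k) i) = k • Multiplicative.toAdd (y i) :=
  rfl

theorem pi_mem_Dj_imp {j : ℕ} {y : PiB p e} (hy : y ∈ Dj p j (PiB p e)) (i : ι) (hi : e i ≤ j) : y i = 1 := by
  rw [mem_Dj] at hy
  obtain ⟨-, z, rfl⟩ := hy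
  apply Multiplicative.toAdd.injective
  rw [pi_pow_apply]
  show (p ^ j) • Multiplicative.toAdd (z i) = 0
  have h1 : ((p ^ j : ℕ) : ZMod (p ^ e i)) = 0 := by
    rw [ZMod.natCast_eq_zero_iff]
    exact pow_dvd_pow p hi
  rw [nsmul_eq_mul, h1, zero_mul]

theorem pi_mem_Dj_of (hpos : ∀ i, 0 < e i) {j : ℕ} {y : PiB p e} (hy : y ^ p = 1) (h0 : ∀ i, e i ≤ j → y i = 1) :
    y ∈ Dj p j (PiB p e) := by
  rw [mem_Dj]
  refine ⟨hy, ?_⟩
  have hz : ∀ i, ∃ z : Multiplicative (ZMod (p ^ e i)), z ^ (p ^ j) = y i := by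
    intro i
    by_cases hi : e i ≤ j
    · exact ⟨1, by rw [one_pow, h0 i hi]⟩
    · push Not at hi
      have hyi : p • Multiplicative.toAdd (y i) = 0 := by
        have := congrFun hy i
        exact congrArg Multiplicative.toAdd this
      obtain ⟨c, hc⟩ := zmod_eq_of_smul (hpos i) _ hyi
      refine ⟨Multiplicative.ofAdd (c • (p : ZMod (p ^ e i)) ^ (e i - 1 - j)), ?_⟩
      apply Multiplicative.toAdd.injective
      show (p ^ j) • (c • (p : ZMod (p ^ e i)) ^ (e i - 1 - j)) = Multiplicative.toAdd (y i)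
      rw [hc, nsmul_eq_mul, nsmul_eq_mul, nsmul_eq_mul]
      have h3 : e i - 1 = j + (e i - 1 - j) := by omega
      conv_rhs => rw [h3, pow_add]
      push_cast
      ring
  choose z hz using hz
  exact ⟨z, funext hz⟩

/-- The flag has cyclic steps when the invariants are pairwise distinct. -/
theorem pi_step [DecidableEq ι] (hpos : ∀ i, 0 < e i) (he : Function.Injective e) (j : ℕ) :
    ∃ u ∈ Dj p j (PiB p e), ∀ y ∈ Dj p j (PiB p e), ∃ m : ℕ, y * (u ^ m)⁻¹ ∈ Dj p (j + 1) (PiB p e) := by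
  by_cases hex : ∃ i₀, e i₀ = j + 1
  · obtain ⟨i₀, hi₀⟩ := hex
    let u : PiB p e := Pi.mulSingle i₀ (Multiplicative.ofAdd ((p : ZMod (p ^ e i₀)) ^ (e i₀ - 1)))
    have hui₀ : u i₀ = Multiplicative.ofAdd ((p : ZMod (p ^ e i₀)) ^ (e i₀ - 1)) := Pi.mulSingle_eq_same _ _
    have hui : ∀ i, i ≠ i₀ → u i = 1 := fun i hi => Pi.mulSingle_eq_of_ne hi _
    have hup : u ^ p = 1 := by
      funext i
      by_cases hi : i = i₀
      · subst hi
        show (u i) ^ p = 1
        rw [hui₀]
        apply Multiplicative.toAdd.injective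
        show p • (p : ZMod (p ^ e i)) ^ (e i - 1) = 0
        rw [nsmul_eq_mul, ← pow_succ']
        have hpp : e i - 1 + 1 = e i := by omega
        rw [hpp]
        have := ZMod.natCast_self (p ^ e i)
        push_cast at this
        exact this
      · show (u i) ^ p = 1
        rw [hui i hi, one_pow]
    refine ⟨u, pi_mem_Dj_of hpos hup ?_, ?_⟩
    · intro i hi
      apply hui
      rintro rfl
      omega
    · intro y hy
      have hy1 := (mem_Dj.1 hy).1
      have hyi : p • Multiplicative.toAdd (y i₀) = 0 := by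
        have := congrFun hy1 i₀
        exact congrArg Multiplicative.toAdd this
      obtain ⟨c, hc⟩ := zmod_eq_of_smul (hpos i₀) _ hyi
      refine ⟨c, pi_mem_Dj_of hpos ?_ ?_⟩
      · rw [mul_pow, hy1, inv_pow, ← pow_mul, mul_comm c p, pow_mul, hup, one_pow, inv_one, one_mul]
      · intro i hi
        by_cases hii : i = i₀
        · subst hii
          show y i * ((u i) ^ c)⁻¹ = 1
          rw [hui₀]
          apply Multiplicative.toAdd.injective
          show Multiplicative.toAdd (y i) + -(c • (p : ZMod (p ^ e i)) ^ (e i - 1)) = 0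
          rw [hc, add_neg_cancel]
        · have hle : e i ≤ j := by
            have : e i ≠ j + 1 := by
              intro h
              exact hii (he (h.trans hi₀.symm))
            omega
          show y i * ((u i) ^ c)⁻¹ = 1
          rw [hui i hii, one_pow, inv_one, mul_one]
          exact pi_mem_Dj_imp hy i hle
  · push Not at hex
    refine ⟨1, one_mem _, fun y hy => ⟨0, ?_⟩⟩
    rw [pow_zero, inv_one, mul_one]
    refine pi_mem_Dj_of hpos (mem_Dj.1 hy).1 ?_
    intro i hi
    have : e i ≤ j := by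
      have := hex i
      omega
    exact pi_mem_Dj_imp hy i this

end pi

section facts

variable {p : ℕ} [hp : Fact p.Prime] {A : Type*} [CommGroup A] [Finite A]

/-- The flag of an abelian `p`-group with cyclic steps forces `p'`-groups of automorphisms to be abelian of exponent
dividing `p - 1`. -/
theorem aut_facts_of_flag (hA : IsPGroup p A)
    (hstep : ∀ j, ∃ u ∈ Dj p j A, ∀ y ∈ Dj p j A, ∃ m : ℕ, y * (u ^ m)⁻¹ ∈ Dj p (j + 1) A)
    (H : Subgroup (MulAut A)) (hH : (Nat.card H).Coprime p) :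
    IsMulCommutative H ∧ ∀ h ∈ H, h ^ (p - 1) = 1 := by
  have hfinA : Finite (MulAut A) := finite_mulAut
  obtain ⟨N, hN⟩ := IsPGroup.iff_card.1 hA
  have hordH : ∀ τ ∈ H, (orderOf τ).Coprime p := by
    intro τ hτ
    have h1 : orderOf (⟨τ, hτ⟩ : H) = orderOf τ := Subgroup.orderOf_mk τ hτ
    rw [← h1]
    exact Nat.Coprime.coprime_dvd_left (orderOf_dvd_natCard _) hH
  have hinv : ∀ ρ : MulAut A, ∀ j, ∀ x ∈ Dj p j A, ρ x ∈ Dj p j A := fun ρ j x hx => map_mem_Dj ρ hx
  have hnorm : ∀ j, (Dj p j A).Normal := fun j => inferInstance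
  have key : ∀ τ ∈ H, (∀ j, ∀ x ∈ Dj p j A, x⁻¹ * τ x ∈ Dj p (j + 1) A) → τ = 1 := by
    intro τ hτ hst
    apply eq_one_of_fix_omega hA (hordH τ hτ)
    intro x hx
    have hW : ∀ j, ∀ x ∈ Dj p j A, x⁻¹ * τ x ∈ Dj p (j + 1) A := hst
    exact fixed_of_chain hA τ (hordH τ hτ) (fun j => Dj p j A) N (Dj_bot hN) hW N 0 (by omega) x
      (mem_Dj.2 ⟨hx, x, by simp⟩)
  constructor
  · refine ⟨⟨fun a b => Subtype.ext ?_⟩⟩
    have hτ : (a : MulAut A) * b * (a : MulAut A)⁻¹ * (b : MulAut A)⁻¹ = 1 := by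
      apply key _ (H.mul_mem (H.mul_mem (H.mul_mem a.2 b.2) (H.inv_mem a.2)) (H.inv_mem b.2))
      intro j x hx
      obtain ⟨u, hu, hcy⟩ := hstep j
      have hxx : ∀ z, z ∈ Dj p j A → ((a : MulAut A) ((b : MulAut A) z) * ((b : MulAut A) ((a : MulAut A) z))⁻¹ ∈ Dj p (j + 1) A) := fun z hz =>
        comm_mem_of_cyclic (hnorm (j + 1)) hu hcy (hinv _ _) (hinv _ _) (hinv _ _) (hinv _ _) hz
      have hz : (a : MulAut A)⁻¹ ((b : MulAut A)⁻¹ x) ∈ Dj p j A := hinv _ _ _ (hinv _ _ _ hx)
      have h1 := hxx _ hz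
      have h2 : (b : MulAut A) ((a : MulAut A) ((a : MulAut A)⁻¹ ((b : MulAut A)⁻¹ x))) = x := by simp
      rw [h2] at h1
      have h3 : (a : MulAut A) ((b : MulAut A) ((a : MulAut A)⁻¹ ((b : MulAut A)⁻¹ x))) =
          ((a : MulAut A) * b * (a : MulAut A)⁻¹ * (b : MulAut A)⁻¹) x := rfl
      rw [h3] at h1
      have h4 := (hnorm (j + 1)).conj_mem _ h1 x⁻¹
      have h5 : x⁻¹ * (((a : MulAut A) * b * (a : MulAut A)⁻¹ * (b : MulAut A)⁻¹) x * x⁻¹) * x⁻¹⁻¹ =
          x⁻¹ * ((a : MulAut A) * b * (a : MulAut A)⁻¹ * (b : MulAut A)⁻¹) x := by group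
      rwa [h5] at h4
    have h1 : (a : MulAut A) * b * (a : MulAut A)⁻¹ = b := mul_inv_eq_one.1 hτ
    exact mul_inv_eq_iff_eq_mul.1 h1
  · intro h hh
    apply key _ (H.pow_mem hh _)
    intro j x hx
    obtain ⟨u, hu, hcy⟩ := hstep j
    exact pow_fix_of_cyclic hA (hnorm (j + 1)) hu hcy (hinv h _) (hinv h _) (hordH h hh) hx

end facts

section structure_thm

variable {p : ℕ} [hp : Fact p.Prime]

/-- Split off two factors with the same invariant. -/
theorem nonempty_split {ι : Type} [Fintype ι] [DecidableEq ι] {e : ι → ℕ} {i j : ι} (hij : i ≠ j) (he : e i = e j) :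
    Nonempty (PiB p e ≃* (Multiplicative (ZMod (p ^ e i)) × Multiplicative (ZMod (p ^ e i))) ×
      ((k : {k : ι // k ≠ i ∧ k ≠ j}) → Multiplicative (ZMod (p ^ e k)))) := by
  let f : Multiplicative (ZMod (p ^ e j)) ≃* Multiplicative (ZMod (p ^ e i)) :=
    AddEquiv.toMultiplicative (ZMod.ringEquivCongr (by rw [he])).toAddEquiv
  let F : PiB p e →* (Multiplicative (ZMod (p ^ e i)) × Multiplicative (ZMod (p ^ e i))) ×
      ((k : {k : ι // k ≠ i ∧ k ≠ j}) → Multiplicative (ZMod (p ^ e k))) :=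
    { toFun := fun g => ((g i, f (g j)), fun k : {k : ι // k ≠ i ∧ k ≠ j} => g k.1)
      map_one' := by
        ext <;> simp
      map_mul' := by
        intro a b
        ext <;> simp }
  have hinj : Function.Injective F := by
    intro a b hab
    have h1 : a i = b i := congrArg (fun t => t.1.1) hab
    have h2 : f (a j) = f (b j) := congrArg (fun t => t.1.2) hab
    have h3 : ∀ k : {k : ι // k ≠ i ∧ k ≠ j}, a k.1 = b k.1 := fun k => congrFun (congrArg (fun t => t.2) hab) k
    funext k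
    by_cases hk : k = i
    · subst hk
      exact h1
    by_cases hk' : k = j
    · subst hk'
      exact f.injective h2
    exact h3 ⟨k, hk, hk'⟩
  have hsurj : Function.Surjective F := by
    rintro ⟨⟨a, b⟩, r⟩
    let g : PiB p e := fun k => if h : k = i then h.symm ▸ a else
      if h' : k = j then h'.symm ▸ (f.symm b) else r ⟨k, h, h'⟩
    refine ⟨g, ?_⟩
    have h1 : g i = a := dif_pos rfl
    have h2 : g j = f.symm b := by
      show (if h : j = i then h.symm ▸ a else if h' : j = j then h'.symm ▸ (f.symm b) else r ⟨j, h, h'⟩) = _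
      rw [dif_neg hij.symm, dif_pos rfl]
    have h3 : ∀ k : {k : ι // k ≠ i ∧ k ≠ j}, g k.1 = r k := by
      intro k
      show (if h : k.1 = i then h.symm ▸ a else if h' : k.1 = j then h'.symm ▸ (f.symm b) else r ⟨k.1, h, h'⟩) = _
      rw [dif_neg k.2.1, dif_neg k.2.2]
    show ((g i, f (g j)), fun k : {k : ι // k ≠ i ∧ k ≠ j} => g k.1) = _
    rw [h1, h2, f.apply_symm_apply]
    congr 1
    funext k
    exact h3 k
  exact ⟨MulEquiv.ofBijective F ⟨hinj, hsurj⟩⟩

variable {A : Type*} [CommGroup A] [Finite A]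

/-- The structure theorem: an abelian `p`-group with no homocyclic factor of rank two has a flag with cyclic steps. -/
theorem flag_of_no_factor (hA : IsPGroup p A)
    (hno : ¬ ∃ (n : ℕ) (H : Type) (_ : CommGroup H), 0 < n ∧
      Nonempty (A ≃* (Multiplicative (ZMod (p ^ n)) × Multiplicative (ZMod (p ^ n))) × H)) (j : ℕ) :
    ∃ u ∈ Dj p j A, ∀ y ∈ Dj p j A, ∃ m : ℕ, y * (u ^ m)⁻¹ ∈ Dj p (j + 1) A := by
  classical
  have hp0 := hp.out
  obtain ⟨ι, hι, n, hn, ⟨φ⟩⟩ := CommGroup.equiv_prod_multiplicative_zmod_of_finite A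
  obtain ⟨N, hN⟩ := IsPGroup.iff_card.1 hA
  have hni : ∀ i, ∃ k, n i = p ^ k := by
    intro i
    have h1 : Nat.card (Multiplicative (ZMod (n i))) ∣ Nat.card A := by
      rw [Nat.card_congr φ.toEquiv, Nat.card_pi]
      exact Finset.dvd_prod_of_mem (fun i => Nat.card (Multiplicative (ZMod (n i)))) (Finset.mem_univ i)
    rw [Nat.card_congr Multiplicative.toAdd, Nat.card_zmod, hN] at h1
    obtain ⟨k, -, hk⟩ := (Nat.dvd_prime_pow hp0).1 h1
    exact ⟨k, hk⟩
  choose e he using hni
  obtain rfl : n = fun i => p ^ e i := funext he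
  have hpos : ∀ i, 0 < e i := by
    intro i
    have h1 := hn i
    by_contra h0
    have h2 : e i = 0 := by omega
    simp [h2] at h1
  have heinj : Function.Injective e := by
    intro a b hab
    by_contra hne
    apply hno
    obtain ⟨ψ⟩ := nonempty_split (p := p) (e := e) hne hab
    exact ⟨e a, _, inferInstance, hpos a, ⟨φ.trans ψ⟩⟩
  obtain ⟨u, hu, hgen⟩ := pi_step (p := p) hpos heinj j
  refine ⟨φ.symm u, map_mem_Dj φ.symm hu, fun y hy => ?_⟩
  obtain ⟨m, hm⟩ := hgen (φ y) (map_mem_Dj φ hy)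
  refine ⟨m, ?_⟩
  have h1 := map_mem_Dj φ.symm hm
  simpa using h1

end structure_thm

section explicit

variable {C D : Type*} [CommGroup C] [Group D]

/-- `((x, y), z) ↦ ((x⁻¹, y), z)`. -/
def autA (C D : Type*) [CommGroup C] [Group D] : MulAut ((C × C) × D) where
  toFun t := ((t.1.1⁻¹, t.1.2), t.2)
  invFun t := ((t.1.1⁻¹, t.1.2), t.2)
  left_inv t := by simp
  right_inv t := by simp
  map_mul' a b := by
    ext <;> simp [mul_comm]

/-- `((x, y), z) ↦ ((y, x), z)`. -/
def autB (C D : Type*) [CommGroup C] [Group D] : MulAut ((C × C) × D) where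
  toFun t := ((t.1.2, t.1.1), t.2)
  invFun t := ((t.1.2, t.1.1), t.2)
  left_inv t := by simp
  right_inv t := by simp
  map_mul' a b := by
    ext <;> simp

/-- `((x, y), z) ↦ ((y⁻¹, x y⁻¹), z)`, of order three. -/
def autC (C D : Type*) [CommGroup C] [Group D] : MulAut ((C × C) × D) where
  toFun t := ((t.1.2⁻¹, t.1.1 * t.1.2⁻¹), t.2)
  invFun t := ((t.1.1⁻¹ * t.1.2, t.1.1⁻¹), t.2)
  left_inv t := by
    ext <;> simp
  right_inv t := by
    ext <;> simp
  map_mul' a b := by
    ext
    · simp [mul_comm]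
    · simp only [Prod.fst_mul, Prod.snd_mul, mul_inv_rev]
      rw [mul_comm]
      simp only [mul_assoc, mul_left_comm, mul_comm]
    · simp

theorem autA_sq : autA C D ^ 2 = 1 := by
  ext t <;> simp [autA, pow_two]

theorem autB_sq : autB C D ^ 2 = 1 := by
  ext t <;> simp [autB, pow_two]

theorem autAB_pow : (autA C D * autB C D) ^ 4 = 1 := by
  ext t <;> simp [autA, autB, pow_succ]

theorem autC_cube : autC C D ^ 3 = 1 := by
  ext t <;> simp [autC, pow_succ]

end explicit

section final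

variable {p : ℕ} [hp : Fact p.Prime]

theorem ofAdd_one_ne {n : ℕ} (hn : 0 < n) : (Multiplicative.ofAdd (1 : ZMod (p ^ n))) ≠ 1 := by
  have h1 : 1 < p ^ n := Nat.one_lt_pow hn.ne' hp.out.one_lt
  haveI : Fact (1 < p ^ n) := ⟨h1⟩
  intro h
  exact one_ne_zero (Multiplicative.ofAdd.injective h)

/-- The homocyclic factor of rank two contradicts the facts on `p'`-groups of automorphisms. -/
theorem no_factor_of_facts {A : Type*} [Group A] [Finite A]
    (hfacts : ∀ H : Subgroup (MulAut A), (Nat.card H).Coprime p → IsMulCommutative H ∧ ∀ h ∈ H, h ^ (p - 1) = 1) :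
    ¬ ∃ (n : ℕ) (H : Type) (_ : CommGroup H), 0 < n ∧
      Nonempty (A ≃* (Multiplicative (ZMod (p ^ n)) × Multiplicative (ZMod (p ^ n))) × H) := by
  rintro ⟨n, D, _, hn, ⟨e⟩⟩
  have hp0 := hp.out
  have hfinA : Finite (MulAut A) := finite_mulAut
  let C := Multiplicative (ZMod (p ^ n))
  let Ψ : MulAut ((C × C) × D) ≃* MulAut A := MulAut.congr e.symm
  let g : C := Multiplicative.ofAdd (1 : ZMod (p ^ n))
  have hg : g ≠ 1 := ofAdd_one_ne hn
  by_cases hp2 : p = 2
  · let z := Ψ (autC C D)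
    have hz3 : z ^ 3 = 1 := by
      show (Ψ (autC C D)) ^ 3 = 1
      rw [← map_pow, autC_cube, map_one]
    have hcard : Nat.card (zpowers z) ∣ 3 := by
      rw [Nat.card_zpowers]
      exact orderOf_dvd_of_pow_eq_one hz3
    have hco : (Nat.card (zpowers z)).Coprime p := by
      apply Nat.Coprime.coprime_dvd_left hcard
      rw [hp2]
      norm_num
    obtain ⟨-, h2⟩ := hfacts (zpowers z) hco
    have h3 := h2 z (mem_zpowers z)
    have h4 : z = 1 := by
      rw [hp2] at h3
      simpa using h3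
    have h5 : autC C D = 1 := by
      apply Ψ.injective
      rw [map_one]
      exact h4
    have h6 := congrArg (fun ρ : MulAut ((C × C) × D) => (ρ ((g, 1), 1)).1.1) h5
    simp only [autC, MulEquiv.coe_mk, Equiv.coe_fn_mk, MulAut.one_apply, inv_one] at h6
    exact hg h6.symm
  · have hodd : 3 ≤ p := by
      have := hp0.two_le
      omega
    let x := Ψ (autA C D)
    let y := Ψ (autB C D)
    have hx2 : x ^ 2 = 1 := by
      show (Ψ (autA C D)) ^ 2 = 1
      rw [← map_pow, autA_sq, map_one]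
    have hy2 : y ^ 2 = 1 := by
      show (Ψ (autB C D)) ^ 2 = 1
      rw [← map_pow, autB_sq, map_one]
    have hxy : (x * y) ^ 4 = 1 := by
      show (Ψ (autA C D) * Ψ (autB C D)) ^ 4 = 1
      rw [← map_mul, ← map_pow, autAB_pow, map_one]
    have hgg : g * g ≠ 1 := by
      intro h
      have h1 : (1 : ZMod (p ^ n)) + 1 = 0 := Multiplicative.ofAdd.injective h
      have h2 : ((2 : ℕ) : ZMod (p ^ n)) = 0 := by
        push_cast
        rw [← one_add_one_eq_two]
        exact h1
      rw [ZMod.natCast_eq_zero_iff] at h2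
      have h3 := Nat.le_of_dvd (by norm_num) h2
      have h4 : p ≤ p ^ n := Nat.le_self_pow hn.ne' p
      omega
    have hx1 : x ≠ 1 := by
      intro h
      have h5 : autA C D = 1 := by
        apply Ψ.injective
        rw [map_one]
        exact h
      have h6 := congrArg (fun ρ : MulAut ((C × C) × D) => (ρ ((g, 1), 1)).1.1) h5
      simp only [autA, MulEquiv.coe_mk, Equiv.coe_fn_mk, MulAut.one_apply] at h6
      apply hgg
      have h7 : g⁻¹ = g := h6
      nth_rewrite 1 [← h7]
      exact inv_mul_cancel g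
    have hy1 : y ≠ 1 := by
      intro h
      have h5 : autB C D = 1 := by
        apply Ψ.injective
        rw [map_one]
        exact h
      have h6 := congrArg (fun ρ : MulAut ((C × C) × D) => (ρ ((g, 1), 1)).1.1) h5
      simp only [autB, MulEquiv.coe_mk, Equiv.coe_fn_mk, MulAut.one_apply] at h6
      exact hg h6.symm
    have hox : orderOf x = 2 := orderOf_eq_prime hx2 hx1
    have hoy : orderOf y = 2 := orderOf_eq_prime hy2 hy1
    obtain ⟨ε⟩ := Cfsg.Agent.Lib.Involutions.Dihedral.nonempty_closure_equiv hox hoy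
    have hcard : Nat.card (closure ({x, y} : Set (MulAut A))) ∣ 2 * 4 := by
      rw [Nat.card_congr ε.toEquiv, DihedralGroup.nat_card]
      exact Nat.mul_dvd_mul_left 2 (orderOf_dvd_of_pow_eq_one hxy)
    have hco : (Nat.card (closure ({x, y} : Set (MulAut A)))).Coprime p := by
      apply Nat.Coprime.coprime_dvd_left hcard
      have : Nat.Coprime 2 p := by
        rw [Nat.coprime_primes Nat.prime_two hp0]
        exact fun h => hp2 h.symm
      have h8 : (2 * 4 : ℕ) = 2 ^ 3 := by norm_num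
      rw [h8]
      exact this.pow_left 3
    obtain ⟨h1, -⟩ := hfacts _ hco
    have hxm : x ∈ closure ({x, y} : Set (MulAut A)) := subset_closure (by simp)
    have hym : y ∈ closure ({x, y} : Set (MulAut A)) := subset_closure (by simp)
    have h2 : x * y = y * x := congrArg Subtype.val (h1.is_comm.comm ⟨x, hxm⟩ ⟨y, hym⟩)
    have h5 : autA C D * autB C D = autB C D * autA C D := by
      apply Ψ.injective
      rw [map_mul, map_mul]
      exact h2
    have h6 := congrArg (fun ρ : MulAut ((C × C) × D) => (ρ ((g, 1), 1)).1.2) h5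
    simp only [autA, autB, MulEquiv.coe_mk, Equiv.coe_fn_mk, MulAut.mul_apply] at h6
    apply hgg
    have h7 : g = g⁻¹ := h6
    nth_rewrite 1 [h7]
    exact inv_mul_cancel g

variable {Ω : Type*} [Group Ω] {S : Subgroup Ω} [Finite S]

/-- A saturated system over an abelian group: `S` is normal. -/
theorem isNormal_of_abelian (hS : IsPGroup p S) (hab : IsMulCommutative S) {F : FusionSystem S} (hF : F.IsSaturated p) :
    F.IsNormal S := by
  apply Cfsg.Agent.Lib.FusionTheory.Normal.isNormal_top_of_no_essential F hS hF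
  intro P hP
  have hPS : P ≤ S := hP.1.1
  apply le_antisymm hPS
  intro s hs
  apply hP.1.2 P (isConj_refl F hPS)
  refine ⟨hs, ?_⟩
  show s ∈ centralizer (P : Set Ω)
  rw [mem_centralizer_iff]
  intro y hy
  have h1 := hab.is_comm.comm (⟨y, hPS hy⟩ : S) ⟨s, hs⟩
  exact congrArg Subtype.val h1

/-- **Main theorem.** -/
theorem abelian_iff (hS : IsPGroup p S) (hab : IsMulCommutative S) :
    (∀ F : FusionSystem S, F.IsSaturated p → HasChain F) ↔
      ¬ ∃ (n : ℕ) (H : Type) (_ : CommGroup H), 0 < n ∧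
        Nonempty (↥S ≃* (Multiplicative (ZMod (p ^ n)) × Multiplicative (ZMod (p ^ n))) × H) := by
  rw [supersoluble_iff hS]
  constructor
  · rintro ⟨-, h2⟩
    exact no_factor_of_facts h2
  · intro hno
    refine ⟨fun F hF => isNormal_of_abelian hS hab hF, ?_⟩
    letI cg : CommGroup S := { (inferInstance : Group S) with mul_comm := fun a b => hab.is_comm.comm a b }
    exact aut_facts_of_flag hS (flag_of_no_factor hS hno)

end final

end Cfsg.Agent.Lib.Fusion.SupersolubleAb
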