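import Cfsg.Agent.Lib.FusionExt.Constr1
import Cfsg.Agent.Lib.FusionExt.Realized

import Cfsg.Agent.Lib.Fusion.Model
import Cfsg.Agent.Lib.Core.PLength
import Cfsg.Agent.Lib.FusionTheory.ResidualLimit
import Cfsg.Agent.S5090
import Cfsg.Agent.S5140

/-!
# Terminating residual series (helper20)

A saturated fusion system has a terminating alternating chain of `p'`-residual and `p`-residual subsystems
if and only if it is constrained with `p`-solvable models.  Everything goes through the conjugation action `rho` of a model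
on a subgroup normal in the system.
-/

set_option autoImplicit false
set_option linter.unusedSectionVars false

namespace Cfsg.Agent.Lib.Fusion.TermSeries

open Cfsg Cfsg.FusionSystem Cfsg.Agent.Lib.Fusion.Basic Cfsg.Agent.Lib.Fusion.Model
open Cfsg.Agent.Lib.Core.Basic Cfsg.Agent.Lib.Core.PSolvable Cfsg.Agent.Lib.Core.PLength Cfsg.Agent.Lib.Core.Residual
open Cfsg.Agent.Lib.FusionExt.MapApi Cfsg.Agent.Lib.FusionExt.PowerSys Cfsg.Agent.Lib.FusionExt.Basic
open Cfsg.Agent.Lib.FusionExt.Normal Cfsg.Agent.Lib.FusionExt.Hyperfocal Cfsg.Agent.Lib.FusionExt.Constrained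
open Cfsg.Agent.Lib.FusionExt.CoreN Cfsg.Agent.Lib.FusionExt.Comp1 Cfsg.Agent.Lib.FusionExt.Comp2
open Cfsg.Agent.Lib.FusionExt.Constr1 Cfsg.Agent.Lib.FusionExt.Factor Cfsg.Agent.Lib.Fusion.Center
open Cfsg.Agent.Lib.FusionExt.LowPi Cfsg.Agent.Lib.FusionExt.Realized

universe u

section group

variable {p : ℕ} [hp : Fact p.Prime]

theorem psolv_of_isPGroup {X : Type*} [Group X] [Finite X] (h : IsPGroup p X) : IsPSolvable p X :=
  isPSolvable_of_isPOrCoprime (Or.inl (IsPGroup.iff_card.1 h))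

theorem isPGroup_of_coprime_triv {X : Type*} [Group X] [Finite X]
    (h : ∀ x : X, (orderOf x).Coprime p → x = 1) : IsPGroup p X := by
  intro g
  have hp' := (Fact.out : p.Prime)
  have hn := Nat.ordProj_mul_ordCompl_eq_self (orderOf g) p
  have hcop := Nat.coprime_ordCompl hp' (orderOf_pos g).ne'
  refine ⟨(orderOf g).factorization p, ?_⟩
  apply h
  refine Nat.Coprime.coprime_dvd_left (orderOf_dvd_of_pow_eq_one ?_) hcop.symm
  rw [← pow_mul, hn, pow_orderOf_eq_one]

/-- `O^p(A)` inside a `p`-solvable subgroup. -/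
theorem psolv_of_pResidual_le {X : Type u} [Group X] [Finite X] {A B : Subgroup X}
    (hle : (pResidual p A).map A.subtype ≤ B) (hB : IsPSolvable p B) : IsPSolvable p A := by
  let K := pResidual p A
  let f := QuotientGroup.mk' K
  refine isPSolvable_of_ker f (QuotientGroup.mk'_surjective K) ?_ ?_
  · let g : f.ker →* B :=
      { toFun := fun x => ⟨((x : A) : X), hle ⟨x, (QuotientGroup.eq_one_iff _).1 (MonoidHom.mem_ker.1 x.2), rfl⟩⟩
        map_one' := rfl
        map_mul' := fun _ _ => rfl }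
    have hg : Function.Injective g := fun a b h => Subtype.ext (Subtype.ext (congrArg (fun y : B => (y : X)) h))
    exact isPSolvable_of_injective g hg hB
  · exact psolv_of_isPGroup pResidual_quotient_isPGroup

/-- The subgroup generated by the `p`-elements is normal. -/
theorem closure_pEl_normal {A : Type*} [Group A] :
    (Subgroup.closure {α : A | ∃ k : ℕ, orderOf α = p ^ k}).Normal := by
  refine ⟨fun n hn g => ?_⟩
  induction hn using Subgroup.closure_induction with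
  | mem x hx =>
    obtain ⟨k, hk⟩ := hx
    refine Subgroup.subset_closure ⟨k, ?_⟩
    rw [← hk]
    exact orderOf_eq_orderOf_iff.2 (fun n => by
      rw [conj_pow]
      constructor
      · intro h
        have : g * x ^ n * g⁻¹ = g * 1 * g⁻¹ := by rw [h]; group
        simpa using this
      · intro h
        rw [h]
        group)
  | one => simp
  | mul x y _ _ ihx ihy =>
    have : g * (x * y) * g⁻¹ = (g * x * g⁻¹) * (g * y * g⁻¹) := by group
    rw [this]
    exact Subgroup.mul_mem _ ihx ihy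
  | inv x _ ih =>
    have : g * x⁻¹ * g⁻¹ = (g * x * g⁻¹)⁻¹ := by group
    rw [this]
    exact Subgroup.inv_mem _ ih

/-- `O^{p'}(A)` inside a `p`-solvable subgroup. -/
theorem psolv_of_closure_le {X : Type u} [Group X] [Finite X] {A B : Subgroup X}
    (hle : (Subgroup.closure {α : A | ∃ k : ℕ, orderOf α = p ^ k}).map A.subtype ≤ B) (hB : IsPSolvable p B) :
    IsPSolvable p A := by
  let K : Subgroup A := Subgroup.closure {α : A | ∃ k : ℕ, orderOf α = p ^ k}
  haveI hK : K.Normal := closure_pEl_normal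
  let f := QuotientGroup.mk' K
  refine isPSolvable_of_ker f (QuotientGroup.mk'_surjective K) ?_ ?_
  · let g : f.ker →* B :=
      { toFun := fun x => ⟨((x : A) : X), hle ⟨x, (QuotientGroup.eq_one_iff _).1 (MonoidHom.mem_ker.1 x.2), rfl⟩⟩
        map_one' := rfl
        map_mul' := fun _ _ => rfl }
    have hg : Function.Injective g := fun a b h => Subtype.ext (Subtype.ext (congrArg (fun y : B => (y : X)) h))
    exact isPSolvable_of_injective g hg hB
  · refine isPSolvable_of_isPOrCoprime (Or.inr ?_)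
    refine Nat.Coprime.symm ((Nat.Prime.coprime_iff_not_dvd hp.out).2 fun hd => ?_)
    obtain ⟨x, hx⟩ := exists_prime_orderOf_dvd_card' p hd
    obtain ⟨y, rfl⟩ := QuotientGroup.mk'_surjective K x
    obtain ⟨a, b, hab, -, ⟨k, hk⟩, hb, -, -⟩ := exists_pPart_pPrimePart p y (isOfFinOrder_of_finite y)
    have ha : a ∈ K := by
      have hdvd : orderOf a ∣ p ^ k := orderOf_dvd_of_pow_eq_one hk
      obtain ⟨j, -, hj⟩ := (Nat.dvd_prime_pow hp.out).1 hdvd
      exact Subgroup.subset_closure ⟨j, hj⟩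
    have h1 : (QuotientGroup.mk' K) a = 1 := by
      show ((a : A) : A ⧸ K) = 1
      exact (QuotientGroup.eq_one_iff a).2 ha
    have h2 : (QuotientGroup.mk' K y) ^ orderOf b = 1 := by
      rw [← hab, map_mul, h1, one_mul, ← map_pow, pow_orderOf_eq_one, map_one]
    have h3 : p ∣ orderOf b := hx ▸ orderOf_dvd_of_pow_eq_one h2
    exact hp.out.one_lt.ne' (hb.symm.eq_one_of_dvd h3)

end group

section rho

variable {Ω : Type u} [Group Ω] {S : Subgroup Ω} {G : Type u} [Group G] {ι : S →* G} {F : FusionSystem S}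
  {p : ℕ} [hp : Fact p.Prime] {Q : Subgroup Ω}

/-- A model with a kernel of `rho` that is a `p`-group is `p`-solvable when the automizer is. -/
theorem model_psolv_of_aut [Finite S] (hG : F.IsModel p G ι) (hQ : F.IsNormal Q)
    (hk : ∀ g, rho hG hQ g = 1 → ∃ k : ℕ, g ^ p ^ k = 1) (hA : IsPSolvable p (F.autGroup Q)) : IsPSolvable p G := by
  haveI := model_finite hG
  let f : G →* F.autGroup Q := (rho hG hQ).codRestrict _ (rho_mem hG hQ)
  have hf : Function.Surjective f := by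
    rintro ⟨a, ha⟩
    obtain ⟨g, hg⟩ := rho_surj hG hQ ha
    exact ⟨g, Subtype.ext hg⟩
  refine isPSolvable_of_ker f hf (psolv_of_isPGroup ?_) hA
  rintro ⟨g, hg⟩
  obtain ⟨k, hk'⟩ := hk g (congrArg Subtype.val (MonoidHom.mem_ker.1 hg))
  exact ⟨k, Subtype.ext hk'⟩

theorem aut_psolv_of_model [Finite S] (hG : F.IsModel p G ι) (hQ : F.IsNormal Q) (hs : IsPSolvable p G) :
    IsPSolvable p (F.autGroup Q) := by
  haveI := model_finite hG
  let f : G →* F.autGroup Q := (rho hG hQ).codRestrict _ (rho_mem hG hQ)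
  have hf : Function.Surjective f := by
    rintro ⟨a, ha⟩
    obtain ⟨g, hg⟩ := rho_surj hG hQ ha
    exact ⟨g, Subtype.ext hg⟩
  exact isPSolvable_of_surjective f hf hs

/-- The kernel of `rho` on a normal centric subgroup is a `p`-group. -/
theorem rho_ker_centric [Finite S] (hS : IsPGroup p S) (hG : F.IsModel p G ι) (hQ : F.IsNormal Q)
    (hc : centralizerIn S Q ≤ Q) (g : G) (h : rho hG hQ g = 1) : ∃ k : ℕ, g ^ p ^ k = 1 := by
  obtain ⟨s, -, rfl⟩ := exists_of_rho_eq_one hS hG hQ hc h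
  obtain ⟨k, hk⟩ := hS s
  exact ⟨k, by rw [← map_pow, hk, map_one]⟩

end rho

section triv

variable {Ω : Type u} [Group Ω] {S : Subgroup Ω} {E : FusionSystem S} {p : ℕ} [hp : Fact p.Prime] {R Q : Subgroup Ω}

/-- A `p'`-automorphism of a `p`-group fixing `y⁻¹ a y` fixes `y`. -/
theorem fix_of_comm {Q : Subgroup Ω} (hQp : IsPGroup p Q) {a : MulAut Q} (hc : (orderOf a).Coprime p) (y : Q)
    (hz : a (y⁻¹ * a y) = y⁻¹ * a y) : a y = y := by
  set z : Q := y⁻¹ * a y with hzd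
  have hbx : a y = y * z := by rw [hzd]; group
  have hit : ∀ j : ℕ, (a ^ j) y = y * z ^ j := by
    intro j
    induction j with
    | zero => simp
    | succ j ih =>
      rw [pow_succ', MulAut.mul_apply, ih, map_mul, hbx, map_pow, hz, pow_succ']
      group
  have h1 := hit (orderOf a)
  rw [pow_orderOf_eq_one] at h1
  have h2 : z ^ orderOf a = 1 := by
    have : y = y * z ^ orderOf a := h1
    exact (mul_eq_left.1 this.symm)
  obtain ⟨k, hk⟩ := hQp z
  have h4 := pow_gcd_eq_one.2 ⟨h2, hk⟩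
  rw [Nat.Coprime.pow_right k hc] at h4
  have h5 : z = 1 := by simpa using h4
  rw [hbx, h5, mul_one]

/-- `p'`-maps give elements of the hyperfocal subgroup. -/
theorem pp_hyp' {X : Subgroup Ω} {f : Ω → Ω} (hf : Pp E p X f) {x : Ω} (hx : x ∈ X) :
    x⁻¹ * f x ∈ E.hyperfocalSubgroup p := by
  obtain ⟨c, hc, hce⟩ := hf.1.toAut hf.2.1
  obtain ⟨m, hm, hper⟩ := hf.2.2
  have hcm : c ^ m = 1 := by
    refine MulEquiv.ext (fun y => Subtype.ext ?_)
    have h1 := iterate_autFun (a := c) m y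
    have h2 := hper y y.2
    have e : ∀ z ∈ X, autFun c z = f z := fun z hz => by
      rw [autFun_of_mem c hz, hce ⟨z, hz⟩]
    have h3 : (autFun c)^[m] (y : Ω) = f^[m] y := iterate_congr (img_autFun c).1 e m y.2
    rw [h3, h2] at h1
    exact h1.symm
  have hcp : (orderOf c).Coprime p := Nat.Coprime.coprime_dvd_left (orderOf_dvd_of_pow_eq_one hcm) hm
  have hbr : (⟨c, hc⟩ : E.autGroup X) ∈ pResidual p (E.autGroup X) := by
    apply mem_pResidual_of_coprime
    rw [Subgroup.orderOf_mk]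
    exact hcp
  have := hyperfocal_gen E hf.1.le ⟨c, hc⟩ hbr ⟨x, hx⟩
  have e := hce ⟨x, hx⟩
  rw [show (((⟨c, hc⟩ : E.autGroup X) : MulAut X) ⟨x, hx⟩ : X) = c ⟨x, hx⟩ from rfl, e] at this
  exact this

/-- For `a` an automorphism of `Q` fixing the normal subgroup `R ≤ Q` elementwise, `y⁻¹ a(y)` centralizes `R`. -/
theorem comm_of_fix {a : MulAut Q} (hRQ : R ≤ Q) (hn : ∀ y ∈ Q, ∀ r ∈ R, y * r * y⁻¹ ∈ R)
    (hfix : ∀ x : Q, (x : Ω) ∈ R → a x = x) (y : Q) :
    ((y⁻¹ * a y : Q) : Ω) ∈ Subgroup.centralizer (R : Set Ω) := by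
  rw [Subgroup.mem_centralizer_iff]
  intro r hr
  have hr' : (r : Ω) ∈ R := hr
  have h1 : a ⟨r, hRQ hr'⟩ = ⟨r, hRQ hr'⟩ := hfix _ hr'
  have h2 : a (y * ⟨r, hRQ hr'⟩ * y⁻¹) = y * ⟨r, hRQ hr'⟩ * y⁻¹ := hfix _ (hn y y.2 r hr')
  rw [map_mul, map_mul, map_inv, h1] at h2
  have h3 : ((a y : Q) : Ω) * r * ((a y : Q) : Ω)⁻¹ = (y : Ω) * r * (y : Ω)⁻¹ := congrArg Subtype.val h2
  show r * ((y : Ω)⁻¹ * (a y : Q)) = ((y : Ω)⁻¹ * (a y : Q)) * r
  have h4 : ((a y : Q) : Ω) * r = (y : Ω) * r * (y : Ω)⁻¹ * ((a y : Q) : Ω) := by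
    rw [← h3]
    group
  calc r * ((y : Ω)⁻¹ * (a y : Q)) = (y : Ω)⁻¹ * ((y : Ω) * r * (y : Ω)⁻¹ * (a y : Q)) := by group
    _ = (y : Ω)⁻¹ * ((a y : Q) * r) := by rw [h4]
    _ = _ := by group

/-- A `p'`-automorphism in `E` of `Q` trivial on the normal subgroup `R`, with `C_{hyp(E)}(R) ≤ R`, is trivial. -/
theorem coprime_triv (hS : IsPGroup p S) (hQS : Q ≤ S) (hRQ : R ≤ Q) (hn : ∀ y ∈ Q, ∀ r ∈ R, y * r * y⁻¹ ∈ R)
    (hC : centralizerIn (E.hyperfocalSubgroup p) R ≤ R) {a : MulAut Q} (ha : a ∈ E.autGroup Q)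
    (hc : (orderOf a).Coprime p) (hfix : ∀ x : Q, (x : Ω) ∈ R → a x = x) : a = 1 := by
  have hQp : IsPGroup p Q := hS.to_le hQS
  let P : Subgroup Ω := Q ⊓ Subgroup.centralizer (R : Set Ω)
  have hPQ : P ≤ Q := inf_le_left
  have hfix' : ∀ x : Q, (x : Ω) ∈ R → a⁻¹ x = x := fun x hx => by
    conv_lhs => rw [← hfix x hx]
    exact MulAut.inv_apply_self _ _ _
  have hcomm := comm_of_fix hRQ hn hfix
  have hcomm' := comm_of_fix hRQ hn hfix'
  have hPa : ∀ y : Q, (y : Ω) ∈ P → ((a y : Q) : Ω) ∈ P := by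
    intro y hy
    refine ⟨(a y).2, ?_⟩
    have h1 := Subgroup.mul_mem _ hy.2 (hcomm y)
    have e : (y : Ω) * ((y⁻¹ * a y : Q) : Ω) = (a y : Q) := by
      show (y : Ω) * ((y : Ω)⁻¹ * (a y : Q)) = _
      group
    rwa [e] at h1
  have hPa' : ∀ y : Q, (y : Ω) ∈ P → ((a⁻¹ y : Q) : Ω) ∈ P := by
    intro y hy
    refine ⟨(a⁻¹ y).2, ?_⟩
    have h1 := Subgroup.mul_mem _ hy.2 (hcomm' y)
    have e : (y : Ω) * ((y⁻¹ * a⁻¹ y : Q) : Ω) = (a⁻¹ y : Q) := by
      show (y : Ω) * ((y : Ω)⁻¹ * (a⁻¹ y : Q)) = _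
      group
    rwa [e] at h1
  have hPp : Pp E p P (autFun a) := by
    refine ⟨(mp_autFun hQS ha).restrict hPQ, ⟨fun x hx => ?_, fun y hy => ?_⟩, ?_⟩
    · rw [autFun_of_mem a (hPQ hx)]
      exact hPa ⟨x, hPQ hx⟩ hx
    · refine ⟨_, hPa' ⟨y, hPQ hy⟩ hy, ?_⟩
      rw [autFun_coe]
      simp
    · obtain ⟨m, hm, hper⟩ := (Pp.of_aut hQS ha hc).2.2
      exact ⟨m, hm, fun x hx => hper x (hPQ hx)⟩
  have hfixP : ∀ y : Q, (y : Ω) ∈ P → a y = y := by
    intro y hy
    apply fix_of_comm hQp hc y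
    apply hfix
    apply hC
    refine Subgroup.mem_inf.2 ⟨?_, hcomm y⟩
    have h1 := pp_hyp' hPp hy
    rw [autFun_coe] at h1
    exact h1
  refine MulEquiv.ext fun y => ?_
  apply fix_of_comm hQp hc y
  exact hfixP _ ⟨(y⁻¹ * a y : Q).2, hcomm y⟩

end triv

section kernels

variable {Ω : Type u} [Group Ω] {S : Subgroup Ω} {M : Type u} [Group M] {ι : S →* M} {E : FusionSystem S}
  {p : ℕ} [hp : Fact p.Prime] {R : Subgroup Ω}

/-- `C_S(O_p(E)) ≤ O_p(E)` for a system with a model. -/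
theorem core_cent_of_model [Finite S] (hM : E.IsModel p M ι) : centralizerIn S E.core ≤ E.core := by
  obtain ⟨-, Q₁, hQ₁, hc₁⟩ := isConstrained_of_isModel hM
  have hcc := isCentric_core E hQ₁ hc₁
  exact hcc.2 _ (isConj_refl E hcc.1)

/-- The kernel of `rho` on `R ⊴ E` with `C_{hyp(E)}(R) ≤ R` is a `p`-group. -/
theorem rho_ker_residual [Finite S] (hS : IsPGroup p S) (hM : E.IsModel p M ι) (hR : E.IsNormal R)
    (hC : centralizerIn (E.hyperfocalSubgroup p) R ≤ R) (g : M) (h : rho hM hR g = 1) : ∃ k : ℕ, g ^ p ^ k = 1 := by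
  haveI := model_finite hM
  have hQ : E.IsNormal E.core := Cfsg.Agent.S5145.result E
  have hc := core_cent_of_model hM
  have key : IsPGroup p (rho hM hR).ker := by
    refine isPGroup_of_coprime_triv fun x hx => ?_
    have hx' : (orderOf (x : M)).Coprime p := by rwa [Subgroup.orderOf_coe] at *
    have hx1 : rho hM hR (x : M) = 1 := MonoidHom.mem_ker.1 x.2
    have hcop : (orderOf (rho hM hQ (x : M))).Coprime p := Nat.Coprime.coprime_dvd_left (orderOf_map_dvd _ _) hx'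
    have hRQ : R ≤ E.core := le_core E hR
    have hn : ∀ y ∈ E.core, ∀ r ∈ R, y * r * y⁻¹ ∈ R := fun y hy r hr =>
      (Subgroup.mem_normalizer_iff.1 (sc_le_normalizer E (isNormal_stronglyClosed E hR) (hQ.1 hy)) r).1 hr
    have hfix : ∀ y : E.core, (y : Ω) ∈ R → rho hM hQ (x : M) y = y := by
      intro y hy
      have h1 := rho_spec hM hQ (x : M) y
      have h2 := rho_spec hM hR (x : M) ⟨y, hy⟩
      rw [hx1] at h2
      have h3 : ι ⟨((rho hM hQ (x : M) y : E.core) : Ω), hQ.1 (rho hM hQ (x : M) y).2⟩ = ι ⟨y, hQ.1 y.2⟩ := by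
        rw [h1]
        exact h2.symm
      exact Subtype.ext (Subtype.mk.inj (model_injective hM h3))
    have h1 := coprime_triv hS hQ.1 hRQ hn hC (rho_mem hM hQ (x : M)) hcop hfix
    obtain ⟨s, -, hs⟩ := exists_of_rho_eq_one hS hM hQ hc h1
    obtain ⟨k, hk⟩ := hS s
    have h2 : (x : M) ^ p ^ k = 1 := by rw [← hs, ← map_pow, hk, map_one]
    have h3 := pow_gcd_eq_one.2 ⟨pow_orderOf_eq_one (x : M), h2⟩
    rw [Nat.Coprime.pow_right k hx'] at h3
    exact Subtype.ext (by simpa using h3)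
  obtain ⟨k, hk⟩ := key ⟨g, MonoidHom.mem_ker.2 h⟩
  exact ⟨k, congrArg Subtype.val hk⟩

end kernels

section noComp

variable {Ω : Type u} [Group Ω] {S T : Subgroup Ω} {X : FusionSystem S} {p : ℕ} {Q : Subgroup Ω}

/-- A component whose group lies in a normal subgroup cannot exist. -/
theorem no_comp_of_le [Finite S] [Fact p.Prime] (hS : IsPGroup p S) (hF : X.IsSaturated p) (hQ : X.IsNormal Q) {U : Subgroup Ω}
    {C : FusionSystem U} (hC : C.IsComponentIn X p) (hUQ : U ≤ Q) : False := by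
  obtain ⟨h1, h2⟩ := comp_cen hS hF hC hQ
  have hCF := subnormal_sub hC.1
  have hUS : U ≤ S := (X.le_of_mem (hCF U (subtype_mem C le_rfl))).1
  haveI : Finite U := finite_of_le hUS
  obtain ⟨hCs, hyp, hsimple⟩ := hC.2
  have hZU : C.center ≤ U := center_le C
  have hZsc : C.StronglyClosed C.center := by
    refine ⟨hZU, fun P hP φ hφ x => ?_⟩
    rw [map_of_mem_center C hφ x.2 (hP x.2)]
    exact hP x.2
  let θ : U →* (U ⧸ C.center.subgroupOf U) := QuotientGroup.mk' (C.center.subgroupOf U)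
  have hθ : ∀ s : U, θ s = 1 ↔ (s : Ω) ∈ C.center := fun s => by
    show ((s : U) : U ⧸ C.center.subgroupOf U) = 1 ↔ _
    rw [QuotientGroup.eq_one_iff, Subgroup.mem_subgroupOf]
  have hr : θ.range = ⊤ := MonoidHom.range_eq_top.2 (QuotientGroup.mk'_surjective _)
  obtain ⟨E, hE⟩ := exists_isFactorSystem C θ hZsc hθ hr
  obtain ⟨hEs, hne, -⟩ := hsimple E hE
  have hle : C.hyperfocalSubgroup p ≤ ⊥ := by
    refine hyperfocal_le_of_gen (fun P hP f hf x hx => ?_)
    obtain ⟨g, -, hg1, hg2⟩ := h2 P f hf.1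
    rw [← hg1 x hx, hg2 x (hUQ (hP hx))]
    simp
  apply hne
  rw [eq_bot_iff]
  intro y _
  obtain ⟨s, rfl⟩ := QuotientGroup.mk'_surjective _ y
  apply (hθ s).2
  have : (s : Ω) ∈ (⊥ : Subgroup Ω) := by
    apply hle
    rw [hyp]
    exact s.2
  rw [Subgroup.mem_bot.1 this]
  exact Subgroup.one_mem _

end noComp

section forward

variable {Ω : Type u} [Group Ω] {p : ℕ} [hp : Fact p.Prime]

/-- A system on a strongly closed subgroup gives a normal structure for the residual. -/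
theorem hyp_sc {S : Subgroup Ω} [Finite S] (hS : IsPGroup p S) {E : FusionSystem S} (hEs : E.IsSaturated p) :
    ((E.hyperfocalSubgroup p).subgroupOf S).Normal :=
  (Subgroup.normal_subgroupOf_iff_le_normalizer (hyperfocal_le E)).2
    (sc_le_normalizer E (stronglyClosed_hyperfocal E hS hEs))

/-- The step. -/
theorem forward_step {S : Subgroup Ω} [Finite S] (hS : IsPGroup p S) {F E : FusionSystem S} (hF : F.IsSaturated p)
    (hE : F.IsPPrimeResidual p E) {D : FusionSystem (E.hyperfocalSubgroup p)} (hD : E.IsPResidual p D)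
    (hDc : D.IsConstrained p) (hDm : ∀ (N : Type u) [Group N] (ι' : E.hyperfocalSubgroup p →* N), D.IsModel p N ι' → IsPSolvable p N) :
    F.IsConstrained p ∧ ∀ (G : Type u) [Group G] (ι : S →* G), F.IsModel p G ι → IsPSolvable p G := by
  have hEs := hE.1
  have hEF : E.IsNormalIn F p :=
    Cfsg.Agent.Lib.Fusion.LiftX.residual_isNormalIn hS (isNormalIn_self hS hF).1 hE
  have hHS : E.hyperfocalSubgroup p ≤ S := hyperfocal_le E
  haveI : Finite (E.hyperfocalSubgroup p) := finite_of_le hHS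
  have hHp : IsPGroup p (E.hyperfocalSubgroup p) := hS.to_le hHS
  have hDE : D.IsNormalIn E p :=
    Cfsg.Agent.Lib.FusionExt.PPowerNormal.isNormalIn_of_ppower hS hEs hHS (hyp_sc hS hEs) le_rfl hD.1 hD.2
  have hRE : E.IsNormal D.core := core_isNormal hS hDE
  have hRD : D.IsNormal D.core := Cfsg.Agent.S5145.result D
  obtain ⟨hDs, Q', hQ', hc'⟩ := hDc
  have hRc := isCentric_core D hQ' hc'
  have hCH : centralizerIn (E.hyperfocalSubgroup p) D.core ≤ D.core := hRc.2 _ (isConj_refl D hRc.1)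
  have hEc : E.IsConstrained p := by
    refine (Cfsg.Agent.Lib.FusionExt.Constr1.main hS E hEs).2 ?_
    rintro ⟨U, C, hC⟩
    have h1 := comp_cen hS hEs hC hRE
    have hCE := subnormal_sub hC.1
    have hUS : U ≤ S := (E.le_of_mem (hCE U (subtype_mem C le_rfl))).1
    have hUH : U ≤ E.hyperfocalSubgroup p := by
      have h2 := Cfsg.Agent.Lib.FusionTheory.ResidualLimit.hyp_le_hyp (p := p) hCE hUS
      rwa [hC.2.2.1] at h2
    exact no_comp_of_le hS hEs hRE hC (fun u hu => hCH (Subgroup.mem_inf.2 ⟨hUH hu, h1.1 hu⟩))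
  have hQF : F.IsNormal E.core := core_isNormal hS hEF
  have hQE : E.IsNormal E.core := Cfsg.Agent.S5145.result E
  obtain ⟨-, Q₁, hQ₁, hc₁⟩ := hEc
  have hQc := isCentric_core E hQ₁ hc₁
  have hQcc : centralizerIn S E.core ≤ E.core := hQc.2 _ (isConj_refl E hQc.1)
  refine ⟨constrained_of_le hF hQF hQcc, fun G _ ι hG => ?_⟩
  obtain ⟨N, _, ι', hN⟩ := Cfsg.Agent.S5090.result p hHp D ⟨hDs, Q', hQ', hc'⟩
  obtain ⟨M, _, ι₁, hM⟩ := Cfsg.Agent.S5090.result p hS E ⟨hEs, Q₁, hQ₁, hc₁⟩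
  have hNs := hDm N ι' hN
  have hA1 : IsPSolvable p (D.autGroup D.core) := aut_psolv_of_model hN hRD hNs
  haveI : Finite D.core := finite_of_le (hRD.1.trans hHS)
  haveI : Finite (MulAut D.core) := finite_mulAut_of_finite (A := D.core)
  have hA2 : IsPSolvable p (E.autGroup D.core) := psolv_of_pResidual_le (hD.2.2.2 _ hRD.1) hA1
  have hMs : IsPSolvable p M := model_psolv_of_aut hM hRE (rho_ker_residual hS hM hRE hCH) hA2
  have hA3 : IsPSolvable p (E.autGroup E.core) := aut_psolv_of_model hM hQE hMs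
  haveI : Finite E.core := finite_of_le hQE.1
  haveI : Finite (MulAut E.core) := finite_mulAut_of_finite (A := E.core)
  have hA4 : IsPSolvable p (F.autGroup E.core) := psolv_of_closure_le (hE.2.1.2 _ hQE.1) hA3
  exact model_psolv_of_aut hG hQF (rho_ker_centric hS hG hQF hQcc) hA4

/-- Systems over the trivial group. -/
theorem forward_base {S : Subgroup Ω} [Finite S] (hS : IsPGroup p S) {F : FusionSystem S} (hF : F.IsSaturated p) (h0 : S = ⊥) :
    F.IsConstrained p ∧ ∀ (G : Type u) [Group G] (ι : S →* G), F.IsModel p G ι → IsPSolvable p G := by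
  have hQ : F.IsNormal F.core := Cfsg.Agent.S5145.result F
  refine ⟨constrained_of_le hF hQ (fun x hx => ?_), fun G _ ι hG => ?_⟩
  · have h1 : x ∈ S := hx.1
    rw [h0] at h1
    rw [Subgroup.mem_bot.1 h1]
    exact Subgroup.one_mem _
  · haveI := model_finite hG
    obtain ⟨T, hT⟩ := hG.2.2.1
    refine isPSolvable_of_isPOrCoprime (Or.inr ?_)
    have h1 : (T : Subgroup G) = ⊥ := by
      rw [hT, eq_bot_iff]
      rintro _ ⟨s, rfl⟩
      have : (s : Ω) = 1 := Subgroup.mem_bot.1 (h0.le s.2)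
      have e : s = 1 := Subtype.ext this
      rw [e, map_one]
      exact Subgroup.one_mem _
    have h2 := T.not_dvd_index
    rw [h1, Subgroup.index_bot] at h2
    exact ((Nat.Prime.coprime_iff_not_dvd hp.out).2 h2).symm

/-- The forward direction. -/
theorem forward {S : Subgroup Ω} {F : FusionSystem S} {q : ℕ} (h : F.HasTerminatingResidualSeries q) :
    q = p → ∀ [Finite S], IsPGroup p S → F.IsSaturated p →
      F.IsConstrained p ∧ ∀ (G : Type u) [Group G] (ι : S →* G), F.IsModel p G ι → IsPSolvable p G := by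
  induction h with
  | trivial F q h0 =>
    rintro rfl _ hS hF
    exact forward_base hS hF h0
  | step F E q D h1 h2 _ ih =>
    rintro rfl _ hS hF
    have hHS : E.hyperfocalSubgroup q ≤ _ := hyperfocal_le (p := q) E
    haveI : Finite (E.hyperfocalSubgroup q) := finite_of_le hHS
    obtain ⟨hc, hm⟩ := ih rfl (hS.to_le hHS) h2.1
    exact forward_step hS hF h1 h2 hc hm

end forward

section backward

variable {p : ℕ} [hp : Fact p.Prime]

/-- A nontrivial `p`-solvable group has a proper normal subgroup of `p`-power or `p'`-index. -/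
theorem exists_top_step {M : Type*} [Group M] [Nontrivial M] (hs : IsPSolvable p M) :
    ∃ L : Subgroup M, L.Normal ∧ L ≠ ⊤ ∧ ((∃ m : ℕ, L.index = p ^ m) ∨ L.index.Coprime p) := by
  obtain ⟨n, K, h0, hl, hm, hn, hi⟩ := hs
  by_contra hcon
  push Not at hcon
  have hall : ∀ i : Fin (n + 1), K i = ⊤ := by
    intro i
    induction i using Fin.reverseInduction with
    | last => exact hl
    | cast i ih =>
      by_contra hne
      have h1 := hi i
      rw [ih, Subgroup.relIndex_top_right] at h1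
      obtain ⟨h2, h3⟩ := hcon _ (hn i.castSucc) hne
      rcases h1 with ⟨m, h1⟩ | h1
      · exact h2 m h1
      · exact h3 h1
  have h1 := hall 0
  rw [h0] at h1
  exact bot_ne_top h1

variable {Ω : Type u} [Group Ω] {S : Subgroup Ω} {M : Type u} [Group M] {ι : S →* M}

/-- `g` induces on `P` the automorphism `α`. -/
def Ind (ι : S →* M) {P : Subgroup Ω} (hP : P ≤ S) (g : M) (α : MulAut P) : Prop :=
  ∀ x : P, ι ⟨α x, hP (α x).2⟩ = g * ι ⟨x, hP x.2⟩ * g⁻¹

variable {P : Subgroup Ω} {hP : P ≤ S}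

theorem Ind.mul {g h : M} {α β : MulAut P} (h1 : Ind ι hP g α) (h2 : Ind ι hP h β) : Ind ι hP (g * h) (α * β) := by
  intro x
  have e1 := h1 (β x)
  have e2 := h2 x
  rw [e2] at e1
  exact e1.trans (by group)

theorem ind_one : Ind ι hP 1 1 := fun x => by simp

theorem Ind.inv (hinj : Function.Injective ι) {g : M} {α : MulAut P} (h1 : Ind ι hP g α) : Ind ι hP g⁻¹ α⁻¹ := by
  intro x
  have e1 := h1 (α⁻¹ x)
  have e2 : α (α⁻¹ x) = x := MulAut.apply_inv_self _ _ _
  have e3 : ι ⟨α (α⁻¹ x), hP (α (α⁻¹ x)).2⟩ = ι ⟨x, hP x.2⟩ := congrArg ι (Subtype.ext (by rw [e2]))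
  rw [e3] at e1
  rw [e1]
  group

theorem Ind.unique (hinj : Function.Injective ι) {g : M} {α β : MulAut P} (h1 : Ind ι hP g α) (h2 : Ind ι hP g β) : α = β := by
  refine MulEquiv.ext fun x => Subtype.ext ?_
  have h3 := (h1 x).trans (h2 x).symm
  exact Subtype.mk.inj (hinj h3)

theorem Ind.pow {g : M} {α : MulAut P} (h1 : Ind ι hP g α) (k : ℕ) : Ind ι hP (g ^ k) (α ^ k) := by
  induction k with
  | zero => simpa using ind_one
  | succ k ih =>
    rw [pow_succ, pow_succ]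
    exact ih.mul h1

theorem Ind.zpow (hinj : Function.Injective ι) {g : M} {α : MulAut P} (h1 : Ind ι hP g α) (k : ℤ) :
    Ind ι hP (g ^ k) (α ^ k) := by
  cases k with
  | ofNat k => simpa using h1.pow k
  | negSucc k =>
    rw [zpow_negSucc, zpow_negSucc]
    exact (h1.pow (k + 1)).inv hinj

variable [Finite M]

/-- The `p`-part and the `p'`-part of an element inducing `α`. -/
theorem ind_parts (hinj : Function.Injective ι) {g : M} {α : MulAut P} (h1 : Ind ι hP g α) :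
    ∃ (a b : M) (k : ℕ) (s t : ℤ), a ^ p ^ k = 1 ∧ (orderOf b).Coprime p ∧ Ind ι hP a (α ^ s) ∧ Ind ι hP b (α ^ t) ∧
      α ^ s * α ^ t = α := by
  obtain ⟨a, b, hab, -, ⟨k, hk⟩, hb, ha', hb'⟩ := exists_pPart_pPrimePart p g (isOfFinOrder_of_finite g)
  obtain ⟨s, hs⟩ := Subgroup.mem_zpowers_iff.1 ha'
  obtain ⟨t, ht⟩ := Subgroup.mem_zpowers_iff.1 hb'
  have h2 : Ind ι hP a (α ^ s) := hs ▸ h1.zpow hinj s
  have h3 : Ind ι hP b (α ^ t) := ht ▸ h1.zpow hinj t
  refine ⟨a, b, k, s, t, hk, hb, h2, h3, ?_⟩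
  have h4 := h2.mul h3
  rw [hab] at h4
  exact h4.unique hinj h1

/-- A `p`-automorphism is induced by a `p`-element. -/
theorem lift_p (hinj : Function.Injective ι) {g : M} {α : MulAut P} (h1 : Ind ι hP g α) {j : ℕ} (hα : α ^ p ^ j = 1) :
    ∃ a : M, (∃ k : ℕ, a ^ p ^ k = 1) ∧ Ind ι hP a α := by
  obtain ⟨a, b, k, s, t, hk, hb, h2, h3, e⟩ := ind_parts (p := p) hinj h1
  refine ⟨a, ⟨k, hk⟩, ?_⟩
  have h4 : (α ^ t) ^ (orderOf b) = 1 := by
    have h5 := h3.pow (orderOf b)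
    rw [pow_orderOf_eq_one] at h5
    exact h5.unique hinj ind_one
  have h6 : (α ^ t) ^ p ^ j = 1 := by
    rw [← zpow_natCast, ← zpow_mul, mul_comm, zpow_mul, zpow_natCast, hα, one_zpow]
  have h7 := pow_gcd_eq_one.2 ⟨h4, h6⟩
  rw [Nat.Coprime.pow_right j hb, pow_one] at h7
  rw [h7, mul_one] at e
  exact e ▸ h2

/-- A `p'`-automorphism is induced by a `p'`-element. -/
theorem lift_p' [Finite P] (hinj : Function.Injective ι) {g : M} {α : MulAut P} (h1 : Ind ι hP g α) (hα : (orderOf α).Coprime p) :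
    ∃ b : M, (orderOf b).Coprime p ∧ Ind ι hP b α := by
  obtain ⟨a, b, k, s, t, hk, hb, h2, h3, e⟩ := ind_parts (p := p) hinj h1
  refine ⟨b, hb, ?_⟩
  have h4 : (α ^ s) ^ p ^ k = 1 := by
    have h5 := h2.pow (p ^ k)
    rw [hk] at h5
    exact h5.unique hinj ind_one
  have h6 : (α ^ s) ^ orderOf α = 1 := by
    rw [← zpow_natCast, ← zpow_mul, mul_comm, zpow_mul, zpow_natCast, pow_orderOf_eq_one, one_zpow]
  have h7 := pow_gcd_eq_one.2 ⟨h6, h4⟩
  rw [Nat.Coprime.pow_right k hα, pow_one] at h7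
  rw [h7, one_mul] at e
  exact e ▸ h3

/-- Conjugation by an element of `L`, through `ι`. -/
def Cj (ι : S →* M) (L : Subgroup M) (X : Subgroup Ω) (f : Ω → Ω) : Prop :=
  X ≤ S ∧ (∀ x ∈ X, f x ∈ S) ∧ ∃ g ∈ L, ∀ (x : Ω) (hx : x ∈ S) (hfx : f x ∈ S), x ∈ X → ι ⟨f x, hfx⟩ = g * ι ⟨x, hx⟩ * g⁻¹

theorem cjAx (hinj : Function.Injective ι) {L : Subgroup M} (hL : ι.range ≤ L) : SysAx S (Cj ι L) := by
  refine ⟨?_, ?_, ?_, ?_, ?_, ?_, ?_, ?_⟩
  · rintro X f g ⟨h1, h2, c, hc, h3⟩ e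
    refine ⟨h1, fun x hx => e x hx ▸ h2 x hx, c, hc, fun x hxS hfx hx => ?_⟩
    have e' : (⟨g x, hfx⟩ : S) = ⟨f x, h2 x hx⟩ := Subtype.ext (e x hx).symm
    rw [e']
    exact h3 x hxS _ hx
  · rintro X f ⟨h1, -⟩
    exact h1
  · rintro X f x ⟨-, h2, -⟩ hx
    exact h2 x hx
  · rintro X f x y ⟨h1, h2, c, hc, h3⟩ hx hy
    have h4 := h3 (x * y) (h1 (X.mul_mem hx hy)) (h2 _ (X.mul_mem hx hy)) (X.mul_mem hx hy)
    have h5 := h3 x (h1 hx) (h2 x hx) hx
    have h6 := h3 y (h1 hy) (h2 y hy) hy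
    have h7 : ι (⟨f (x * y), h2 _ (X.mul_mem hx hy)⟩ : S) = ι (⟨f x, h2 x hx⟩ * ⟨f y, h2 y hy⟩ : S) := by
      rw [map_mul, h4, h5, h6]
      have : (⟨x * y, h1 (X.mul_mem hx hy)⟩ : S) = ⟨x, h1 hx⟩ * ⟨y, h1 hy⟩ := rfl
      rw [this, map_mul]
      group
    exact congrArg Subtype.val (hinj h7)
  · rintro X f x y ⟨h1, h2, c, hc, h3⟩ hx hy e
    have h5 := h3 x (h1 hx) (h2 x hx) hx
    have h6 := h3 y (h1 hy) (h2 y hy) hy
    have h7 : (⟨f x, h2 x hx⟩ : S) = ⟨f y, h2 y hy⟩ := Subtype.ext e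
    rw [h7, h6] at h5
    have h8 : ι ⟨x, h1 hx⟩ = ι ⟨y, h1 hy⟩ := by
      have := h5
      simpa using this.symm
    exact congrArg Subtype.val (hinj h8)
  · rintro X a hX ha
    refine ⟨hX, fun x hx => S.mul_mem (S.mul_mem ha (hX hx)) (S.inv_mem ha), ι ⟨a, ha⟩, hL ⟨_, rfl⟩, fun x hx hfx _ => ?_⟩
    have e : (⟨a * x * a⁻¹, hfx⟩ : S) = ⟨a, ha⟩ * ⟨x, hx⟩ * ⟨a, ha⟩⁻¹ := rfl
    rw [e, map_mul, map_mul, map_inv]
  · rintro X Y f g ⟨h1, h2, c, hc, h3⟩ hm ⟨h4, h5, d, hd, h6⟩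
    refine ⟨h1, fun x hx => h5 _ (hm x hx), d * c, L.mul_mem hd hc, fun x hx hfx hxX => ?_⟩
    rw [h6 (f x) (h2 x hxX) hfx (hm x hxX), h3 x hx (h2 x hxX) hxX]
    group
  · rintro X Y f ⟨h1, h2, c, hc, h3⟩ hi
    have hY : Y ≤ S := fun y hy => by
      obtain ⟨x, hx, rfl⟩ := hi.2 y hy
      exact h2 x hx
    classical
    let k : Ω → Ω := fun y => Function.invFunOn f (X : Set Ω) y
    have hk1 : ∀ y ∈ Y, k y ∈ X ∧ f (k y) = y := fun y hy => by
      have h4 : y ∈ f '' (X : Set Ω) := by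
        obtain ⟨x, hx, rfl⟩ := hi.2 y hy
        exact ⟨x, hx, rfl⟩
      exact ⟨Function.invFunOn_mem h4, Function.invFunOn_eq h4⟩
    refine ⟨k, ⟨hY, fun y hy => h1 (hk1 y hy).1, c⁻¹, L.inv_mem hc, fun y hy hky hyY => ?_⟩, fun x hx => ?_⟩
    · obtain ⟨h5, h6⟩ := hk1 y hyY
      have h7 := h3 (k y) hky (h2 _ h5) h5
      have e : (⟨f (k y), h2 _ h5⟩ : S) = ⟨y, hy⟩ := Subtype.ext h6
      rw [e] at h7
      rw [h7]
      group
    · have hfx := hi.1 x hx
      obtain ⟨h5, h6⟩ := hk1 (f x) hfx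
      have h7 := h3 x (h1 hx) (h2 x hx) hx
      have h8 := h3 (k (f x)) (h1 h5) (h2 _ h5) h5
      have e : (⟨f (k (f x)), h2 _ h5⟩ : S) = ⟨f x, h2 x hx⟩ := Subtype.ext h6
      rw [e, h7] at h8
      have h9 : ι ⟨k (f x), h1 h5⟩ = ι ⟨x, h1 hx⟩ := by simpa using h8.symm
      exact congrArg Subtype.val (hinj h9)

/-- The system of the conjugations by `L`. -/
noncomputable def sysOf (hinj : Function.Injective ι) {L : Subgroup M} (hL : ι.range ≤ L) : FusionSystem S := mkSys (cjAx hinj hL)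

theorem mem_sysOf (hinj : Function.Injective ι) {L : Subgroup M} (hL : ι.range ≤ L) {X : Subgroup Ω} {φ : X →* Ω} :
    φ ∈ (sysOf hinj hL).Hom X ↔ Cj ι L X (extOf φ) := Iff.rfl

theorem sysOf_realized (hinj : Function.Injective ι) {L : Subgroup M} (hL : ι.range ≤ L) :
    (sysOf hinj hL).IsRealizedBy (ι.codRestrict L (fun s => hL ⟨s, rfl⟩)) := by
  refine ⟨fun a b h => hinj (congrArg Subtype.val h), fun P hP φ hφ => ?_⟩
  rw [mem_sysOf]
  constructor
  · rintro ⟨-, -, g, hg, h⟩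
    refine ⟨⟨g, hg⟩, fun x => Subtype.ext ?_⟩
    have e := extOf_coe φ x
    have h2 := h x (hP x.2) (by rw [e]; exact hφ x) x.2
    have e' : (⟨extOf φ x, by rw [e]; exact hφ x⟩ : S) = ⟨φ x, hφ x⟩ := Subtype.ext e
    rw [e'] at h2
    exact h2
  · rintro ⟨g, hg⟩
    refine ⟨hP, fun x hx => ?_, g, g.2, fun x hxS hfx hx => ?_⟩
    · rw [extOf_of_mem φ hx]
      exact hφ _
    · have h2 := congrArg Subtype.val (hg ⟨x, hx⟩)
      have e : (⟨extOf φ x, hfx⟩ : S) = ⟨φ ⟨x, hx⟩, hφ _⟩ := Subtype.ext (extOf_of_mem φ hx)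
      rw [e]
      exact h2

variable {E : FusionSystem S}

theorem exists_ind (hM : E.IsModel p M ι) (hP : P ≤ S) {α : MulAut P} (hα : α ∈ E.autGroup P) : ∃ g, Ind ι hP g α :=
  (model_realized hM P hP _ (fun x => hP (α x).2)).1 (autHom_mem E hP hα)

omit [Finite M] in
theorem mem_of_pow_coprime {M' : Type*} [Group M'] {L : Subgroup M'} (hL : L.Normal) {b : M'} {c : ℕ} (hc : c.Coprime L.index) (hb : b ^ c = 1) (hfi : L.index ≠ 0) : b ∈ L := by
  haveI := hL
  let y : M' ⧸ L := (b : M' ⧸ L)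
  have h1 : y ^ c = 1 := by
    show ((b : M' ⧸ L)) ^ c = 1
    rw [← QuotientGroup.mk_pow, hb]
    rfl
  have h2 : y ^ L.index = 1 := by
    show ((b : M' ⧸ L)) ^ L.index = 1
    rw [← QuotientGroup.mk_pow]
    exact (QuotientGroup.eq_one_iff _).2 (Subgroup.pow_index_mem L b)
  have h3 := pow_gcd_eq_one.2 ⟨h1, h2⟩
  rw [hc, pow_one] at h3
  exact (QuotientGroup.eq_one_iff b).1 h3

/-- **The residual is proper.** -/
theorem hyp_ne [Finite S] (hS : IsPGroup p S) (hmin : ∀ E₁ : FusionSystem S, E₁.IsSaturated p → E₁.HasPrimeToPIndexIn E p → E.IsSubsystemOf E₁)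
    (hM : E.IsModel p M ι) (hs : IsPSolvable p M) (hS1 : S ≠ ⊥) : E.hyperfocalSubgroup p ≠ S := by
  intro hH
  have hinj := model_injective hM
  obtain ⟨T₀, hT₀⟩ := hM.2.2.1
  have hnt : Nontrivial M := by
    obtain ⟨s, hs'⟩ := (Subgroup.ne_bot_iff_exists_ne_one).1 hS1
    exact ⟨⟨ι s, 1, fun h => hs' (hinj (h.trans (map_one ι).symm))⟩⟩
  obtain ⟨L, hLn, hLne, hidx⟩ := exists_top_step hs
  have hfi : L.index ≠ 0 := Subgroup.index_ne_zero_of_finite
  have hcop : ι.range ≤ L → L.index.Coprime p := by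
    intro hr
    have h1 : L.index ∣ (T₀ : Subgroup M).index := Subgroup.index_dvd_of_le (hT₀.le.trans hr)
    have h2 := T₀.not_dvd_index
    refine Nat.Coprime.symm ((Nat.Prime.coprime_iff_not_dvd hp.out).2 fun h3 => h2 (h3.trans h1))
  rcases hidx with ⟨m, hm⟩ | hc
  · -- `p`-power index: everything lies in `L`
    have hgen : ∀ (P : Subgroup Ω) (hP : P ≤ S) (α : E.autGroup P), α ∈ pResidual p (E.autGroup P) →
        ∃ g ∈ L, Ind ι hP g (α : MulAut P) := by
      intro P hP α hα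
      haveI : Finite P := finite_of_le hP
      let W : Subgroup (E.autGroup P) :=
        { carrier := {α | ∃ g ∈ L, Ind ι hP g (α : MulAut P)}
          mul_mem' := by
            rintro a b ⟨g, hg, h1⟩ ⟨k, hk, h2⟩
            exact ⟨g * k, L.mul_mem hg hk, h1.mul h2⟩
          one_mem' := ⟨1, L.one_mem, ind_one⟩
          inv_mem' := by
            rintro a ⟨g, hg, h1⟩
            exact ⟨g⁻¹, L.inv_mem hg, h1.inv hinj⟩ }
      have hle : pResidual p (E.autGroup P) ≤ W := by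
        refine (Subgroup.closure_le _).2 fun β hβ => ?_
        have hβ' : (orderOf (β : MulAut P)).Coprime p := by rwa [Subgroup.orderOf_coe]
        obtain ⟨g, hg⟩ := exists_ind hM hP β.2
        obtain ⟨b, hb, hb2⟩ := lift_p' hinj hg hβ'
        refine ⟨b, ?_, hb2⟩
        refine mem_of_pow_coprime hLn ?_ (pow_orderOf_eq_one b) hfi
        rw [hm]
        exact Nat.Coprime.pow_right m hb
      exact hle hα
    have hB : E.hyperfocalSubgroup p ≤ preimageAlong ι L := by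
      refine (Subgroup.closure_le _).2 ?_
      rintro _ ⟨P, α, x, hP, hα, rfl⟩
      obtain ⟨g, hg, h1⟩ := hgen P hP α hα
      have hxS : (x : Ω) ∈ S := hP x.2
      have hαS : (((α : MulAut P) x : P) : Ω) ∈ S := hP ((α : MulAut P) x).2
      refine mem_preimageAlong.2 ⟨S.mul_mem (S.inv_mem hxS) hαS, ?_⟩
      have e : ι ⟨(x : Ω)⁻¹ * (((α : MulAut P) x : P) : Ω), S.mul_mem (S.inv_mem hxS) hαS⟩ =
          (ι ⟨x, hxS⟩)⁻¹ * (g * ι ⟨x, hxS⟩ * g⁻¹) := by
        rw [← h1 x, ← map_inv, ← map_mul]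
        rfl
      rw [e]
      have h2 := hLn.conj_mem g hg (ι ⟨x, hxS⟩)⁻¹
      have e2 : (ι ⟨x, hxS⟩)⁻¹ * (g * ι ⟨x, hxS⟩ * g⁻¹) = ((ι ⟨x, hxS⟩)⁻¹ * g * (ι ⟨x, hxS⟩)⁻¹⁻¹) * g⁻¹ := by group
      rw [e2]
      exact L.mul_mem h2 (L.inv_mem hg)
    have hr : ι.range ≤ L := by
      rintro _ ⟨s, rfl⟩
      have h1 : (s : Ω) ∈ preimageAlong ι L := hB (by rw [hH]; exact s.2)
      exact (mem_preimageAlong.1 h1).2
    have h1 := hcop hr
    rw [hm] at h1
    have h2 : L.index = 1 := by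
      rw [hm]
      rcases Nat.eq_zero_or_pos m with rfl | hm0
      · simp
      · exfalso
        have h3 : p ∣ Nat.gcd (p ^ m) p := Nat.dvd_gcd (dvd_pow_self p hm0.ne') (dvd_refl p)
        rw [h1] at h3
        exact hp.out.one_lt.ne' (Nat.dvd_one.1 h3)
    exact hLne (Subgroup.index_eq_one.1 h2)
  · -- `p'`-index
    have hmemL : ∀ a : M, ∀ k : ℕ, a ^ p ^ k = 1 → a ∈ L := by
      intro a k hk
      exact mem_of_pow_coprime hLn (Nat.Coprime.pow_left k hc.symm) hk hfi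
    have hr : ι.range ≤ L := by
      rintro _ ⟨s, rfl⟩
      obtain ⟨k, hk⟩ := hS s
      exact hmemL _ k (by rw [← map_pow, hk, map_one])
    have hsub : (sysOf hinj hr).IsSubsystemOf E := by
      intro X φ hφ
      obtain ⟨hX, hv, g, -, hg⟩ := (mem_sysOf hinj hr).1 hφ
      have hv' : ∀ x : X, φ x ∈ S := fun x => extOf_coe φ x ▸ hv x x.2
      refine (model_realized hM X hX φ hv').2 ⟨g, fun x => ?_⟩
      have h2 := hg x (hX x.2) (hv x x.2) x.2
      have e' : (⟨extOf φ x, hv x x.2⟩ : S) = ⟨φ x, hv' x⟩ := Subtype.ext (extOf_coe φ x)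
      rw [e'] at h2
      exact h2
    have hT₁ : T₀ ≤ L := hT₀.le.trans hr
    have hsat : (sysOf hinj hr).IsSaturated p := by
      refine isSaturated_of_isRealizedBy (sysOf_realized hinj hr) (T₀.subtype hT₁) ?_
      ext x
      rw [Sylow.coe_subtype, Subgroup.mem_subgroupOf, hT₀]
      constructor
      · rintro ⟨s, hs'⟩
        exact ⟨s, Subtype.ext hs'⟩
      · rintro ⟨s, hs'⟩
        exact ⟨s, congrArg Subtype.val hs'⟩
    have hidx1 : (sysOf hinj hr).HasPrimeToPIndexIn E p := by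
      refine ⟨hsub, fun P hP => ?_⟩
      rw [Subgroup.map_le_iff_le_comap]
      refine (Subgroup.closure_le _).2 ?_
      rintro α ⟨k, hk⟩
      have hk' : (α : MulAut P) ^ p ^ k = 1 := by
        rw [← hk, ← Subgroup.orderOf_coe]
        exact pow_orderOf_eq_one _
      obtain ⟨g, hg⟩ := exists_ind hM hP α.2
      obtain ⟨a, ⟨j, hj⟩, ha⟩ := lift_p hinj hg hk'
      show (α : MulAut P) ∈ (sysOf hinj hr).autGroup P
      rw [mem_autGroup_iff _ hP]
      refine (mem_sysOf hinj hr).2 ⟨hP, fun x hx => ?_, a, hmemL a j hj, fun x hxS hfx hx => ?_⟩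
      · rw [extOf_of_mem _ hx]
        exact hP ((α : MulAut P) ⟨x, hx⟩).2
      · have e : (⟨extOf (autHom (α : MulAut P)) x, hfx⟩ : S) = ⟨(α : MulAut P) ⟨x, hx⟩, hP ((α : MulAut P) ⟨x, hx⟩).2⟩ :=
          Subtype.ext (extOf_of_mem _ hx)
        rw [e]
        exact ha ⟨x, hx⟩
    have hle := hmin _ hsat hidx1
    apply hLne
    rw [eq_top_iff]
    intro g _
    have hQ : E.IsNormal E.core := Cfsg.Agent.S5145.result E
    have hcc := core_cent_of_model hM
    have h1 := autHom_mem E hQ.1 (rho_mem hM hQ g)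
    obtain ⟨hX, hv, c, hc', hgc⟩ := (mem_sysOf hinj hr).1 (hle _ h1)
    have h2 : rho hM hQ c = rho hM hQ g := by
      apply rho_eq_of
      intro x
      have h3 := hgc x (hQ.1 x.2) (hv x x.2) x.2
      have e : (⟨extOf (autHom (rho hM hQ g)) x, hv x x.2⟩ : S) = ⟨(rho hM hQ g x : E.core), hQ.1 (rho hM hQ g x).2⟩ :=
        Subtype.ext (extOf_coe _ x)
      rw [e] at h3
      exact h3
    have h3 : rho hM hQ (c⁻¹ * g) = 1 := by
      rw [map_mul, map_inv, h2, inv_mul_cancel]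
    obtain ⟨s, -, hs'⟩ := exists_of_rho_eq_one hS hM hQ hcc h3
    have h4 : g = c * ι s := by rw [hs']; group
    rw [h4]
    exact L.mul_mem hc' (hr ⟨s, rfl⟩)

/-- Residual minimality inside `E`. -/
theorem min_of_residual {F : FusionSystem S} (hE : F.IsPPrimeResidual p E) (E₁ : FusionSystem S) (h1 : E₁.IsSaturated p)
    (h2 : E₁.HasPrimeToPIndexIn E p) : E.IsSubsystemOf E₁ := by
  refine hE.2.2 E₁ h1 ⟨fun X φ hφ => hE.2.1.1 X (h2.1 X hφ), fun P hP => ?_⟩
  rw [Subgroup.map_le_iff_le_comap]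
  refine (Subgroup.closure_le _).2 ?_
  rintro α ⟨k, hk⟩
  have hE1 : (α : MulAut P) ∈ E.autGroup P := hE.2.1.2 P hP ⟨α, Subgroup.subset_closure ⟨k, hk⟩, rfl⟩
  refine h2.2 P hP ⟨⟨α, hE1⟩, Subgroup.subset_closure ⟨k, ?_⟩, rfl⟩
  rw [Subgroup.orderOf_mk, ← hk, Subgroup.orderOf_coe]

end backward

section main

variable {Ω : Type u} [Group Ω] {p : ℕ} [hp : Fact p.Prime]

/-- The backward direction. -/
theorem backward (n : ℕ) : ∀ (S : Subgroup Ω) [Finite S] (F : FusionSystem S), Nat.card S ≤ n → IsPGroup p S → F.IsSaturated p →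
    F.IsConstrained p → (∀ (G : Type u) [Group G] (ι : S →* G), F.IsModel p G ι → IsPSolvable p G) →
    F.HasTerminatingResidualSeries p := by
  induction n with
  | zero =>
    intro S _ F hc
    have := Nat.card_pos (α := S)
    omega
  | succ n ih =>
    intro S _ F hc hS hF hFc hFm
    by_cases hS0 : S = ⊥
    · exact .trivial F p hS0
    obtain ⟨E, hE⟩ := Cfsg.Agent.S5140.result p hS F hF
    have hEs := hE.1
    have hEF : E.IsNormalIn F p :=
      Cfsg.Agent.Lib.Fusion.LiftX.residual_isNormalIn hS (isNormalIn_self hS hF).1 hE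
    have hscS : F.StronglyClosed S := ⟨le_rfl, fun P _ φ hφ x => val_mem F hφ x⟩
    have hEc : E.IsConstrained p := isConstrained_of_sc_subsystem F hS hFc E hEs hE.2.1.1 hscS
    have hHS : E.hyperfocalSubgroup p ≤ S := hyperfocal_le E
    haveI hHf : Finite (E.hyperfocalSubgroup p) := finite_of_le hHS
    have hHp : IsPGroup p (E.hyperfocalSubgroup p) := hS.to_le hHS
    obtain ⟨D, ⟨hDs, hDi⟩, -⟩ := Cfsg.Agent.Lib.FusionExt.PowerMain.main hS E hEs _ hHS le_rfl
    have hD : E.IsPResidual p D := ⟨hDs, hDi⟩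
    have hDE : D.IsNormalIn E p :=
      Cfsg.Agent.Lib.FusionExt.PPowerNormal.isNormalIn_of_ppower hS hEs hHS (hyp_sc hS hEs) le_rfl hDs hDi
    have hDc : D.IsConstrained p := isConstrained_of_sc_subsystem E hS hEc D hDs hDi.1 (stronglyClosed_hyperfocal E hS hEs)
    obtain ⟨G, _, ι, hG⟩ := Cfsg.Agent.S5090.result p hS F hFc
    obtain ⟨M, _, ι₁, hM⟩ := Cfsg.Agent.S5090.result p hS E hEc
    have hGs := hFm G ι hG
    have hQF : F.IsNormal E.core := core_isNormal hS hEF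
    have hQE : E.IsNormal E.core := Cfsg.Agent.S5145.result E
    have hQcc := core_cent_of_model hM
    have hA1 : IsPSolvable p (F.autGroup E.core) := aut_psolv_of_model hG hQF hGs
    haveI : Finite E.core := finite_of_le hQE.1
    haveI : Finite (MulAut E.core) := finite_mulAut_of_finite (A := E.core)
    have hA2 : IsPSolvable p (E.autGroup E.core) :=
      isPSolvable_of_injective (Subgroup.inclusion (Cfsg.Agent.Lib.FusionTheory.ResidualLimit.autGroup_le_of_subsystem hE.2.1.1 le_rfl hQE.1))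
        (Subgroup.inclusion_injective _) hA1
    have hMs : IsPSolvable p M := model_psolv_of_aut hM hQE (rho_ker_centric hS hM hQE hQcc) hA2
    have hRE : E.IsNormal D.core := core_isNormal hS hDE
    have hRD : D.IsNormal D.core := Cfsg.Agent.S5145.result D
    have hA3 : IsPSolvable p (E.autGroup D.core) := aut_psolv_of_model hM hRE hMs
    haveI : Finite D.core := finite_of_le (hRD.1.trans hHS)
    haveI : Finite (MulAut D.core) := finite_mulAut_of_finite (A := D.core)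
    have hA4 : IsPSolvable p (D.autGroup D.core) :=
      isPSolvable_of_injective (Subgroup.inclusion (Cfsg.Agent.Lib.FusionTheory.ResidualLimit.autGroup_le_of_subsystem hDi.1 hHS hRD.1))
        (Subgroup.inclusion_injective _) hA3
    haveI := model_finite hM
    have hne := hyp_ne hS (min_of_residual hE) hM hMs hS0
    have hlt : Nat.card (E.hyperfocalSubgroup p) ≤ n := by
      have h1 := Subgroup.card_le_of_le hHS
      rcases h1.lt_or_eq with h | h
      · omega
      · exact absurd (Subgroup.eq_of_le_of_card_ge hHS h.ge) hne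
    refine .step F E p D hE hD (ih _ D hlt hHp hDs hDc fun N _ ι' hN => ?_)
    obtain ⟨-, Q', hQ', hc'⟩ := hDc
    have hRc := isCentric_core D hQ' hc'
    exact model_psolv_of_aut hN hRD (rho_ker_centric hHp hN hRD (hRc.2 _ (isConj_refl D hRc.1))) hA4

/-- **S5156**. -/
theorem main {S : Subgroup Ω} [Finite S] (hS : IsPGroup p S) (F : FusionSystem S) (hF : F.IsSaturated p) :
    F.HasTerminatingResidualSeries p ↔
      (F.IsConstrained p ∧ ∀ (G : Type u) [Group G] (ι : S →* G), F.IsModel p G ι → IsPSolvable p G) :=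
  ⟨fun h => forward h rfl hS hF, fun h => backward _ S F le_rfl hS hF h.1 h.2⟩

end main

end Cfsg.Agent.Lib.Fusion.TermSeries
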